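import Cfsg.Agent.H610.EB.RPhi

/-!
# The conclusion from a character with inertia group `J` (helper352)
-/

set_option autoImplicit false
set_option linter.unusedSectionVars false
set_option linter.style.haveILetI false

namespace Cfsg.Agent.H352.EB

open Cfsg Cfsg.Agent.H610.EB Cfsg.Agent.H611.EB Cfsg.Agent.H694 Cfsg.Agent.H610
open scoped ComplexConjugate
open Cfsg.Agent.Characters Cfsg.Agent.Characters.Core
open Cfsg.Agent.OddOrderCharacters.NormalInduced (conjFn)
open Cfsg.Agent.OddOrderCharacters.PF9.CliffGen (resTo irr_ind)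
open Cfsg.Agent.Blocks.Local Cfsg.Agent.Blocks.Basic
open Cfsg.Agent.Blocks.Covering (conjIrr conjIrr_apply)

universe u

variable {G : Type u} [Group G] [Fintype G] {M : Ideal AlgInt} {k : ℕ}
variable (N J : Subgroup G) [hN : N.Normal] [hJ : J.Normal] [Fintype N] [Fintype J] (hNJ : N ≤ J)

include hNJ in
/-- **The conclusion from a fixed character with inertia group `J`.** -/
theorem concl_of_inertia (hM : IsPModular 2 M) (hodd : Odd (N.relIndex J))
    (hidx : ∃ j : ℕ, J.index = 2 ^ j) (hk : IsK G k) (φ : IrrCharacter N)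
    (hφ : φ ∈ principalBlock M N) (hφk : ∀ s : N, (φ : N → ℂ) (s ^ k) = (φ : N → ℂ) s)
    (hI : ∀ g, g ∈ J ↔ conjFn N (φ : N → ℂ) g = φ)
    (heven : Even (charDegree (φ : N → ℂ))) : Concl M G N k := by
  classical
  haveI : Fintype (N.subgroupOf J) := Fintype.ofFinite _
  obtain ⟨χ, hχφ, hχk⟩ := H611.EB.exists_over (hk.sub J) (N.subgroupOf J) hodd
    (H611.EB.dnIrr N J hNJ φ) (by
      intro n
      show (φ : N → ℂ) (Subgroup.subgroupOfEquivOfLe hNJ (n ^ k)) =
        (φ : N → ℂ) (Subgroup.subgroupOfEquivOfLe hNJ n)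
      rw [map_pow, hφk])
  have hover : classInner (resTo hNJ (χ : J → ℂ)) (φ : N → ℂ) ≠ 0 := by
    rw [← classInner_dn N J hNJ]
    exact hχφ
  obtain ⟨hmem, hdeg, hmu⟩ := H611.EB.chain_facts N J hNJ hM hodd hk χ φ hχk hover
  have hres := res_eq_of_over N J hNJ φ.2 (fun g hg => (hI g).1 hg) χ.2 hover
  have hmu0 : (mu (resTo hNJ (χ : J → ℂ)) (φ : N → ℂ) : ℂ) ≠ 0 := by
    intro h0
    apply hover
    rw [hres, h0, zero_smul, classInner_zero_left]
  have hIJ : ∀ g, g ∈ J ↔ conjFn J (χ : J → ℂ) g = χ := by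
    intro g
    constructor
    · intro hg
      funext x
      have h1 := isIrr_isClassFunction χ.2 x ⟨g, hg⟩
      refine Eq.trans ?_ h1
      show (χ : J → ℂ) _ = (χ : J → ℂ) _
      congr 1
    · intro hg
      rw [hI]
      funext n
      have h1 : (mu (resTo hNJ (χ : J → ℂ)) (φ : N → ℂ) : ℂ) * conjFn N (φ : N → ℂ) g n =
          (mu (resTo hNJ (χ : J → ℂ)) (φ : N → ℂ) : ℂ) * (φ : N → ℂ) n := by
        have h2 := congrFun hres n
        have h3 := congrFun hres (MulAut.conjNormal g n)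
        have h4 := congrFun hg ⟨n, hNJ n.2⟩
        have h5 : (χ : J → ℂ) ⟨(MulAut.conjNormal g n : N), hNJ (MulAut.conjNormal g n : N).2⟩ =
            (χ : J → ℂ) ⟨n, hNJ n.2⟩ := by
          refine Eq.trans ?_ h4
          show (χ : J → ℂ) _ = (χ : J → ℂ) _
          congr 1
        have h6 : (mu (resTo hNJ (χ : J → ℂ)) (φ : N → ℂ) : ℂ) * (φ : N → ℂ) (MulAut.conjNormal g n) =
            (mu (resTo hNJ (χ : J → ℂ)) (φ : N → ℂ) : ℂ) * (φ : N → ℂ) n := by
          have h7 : (χ : J → ℂ) ⟨(MulAut.conjNormal g n : N), hNJ (MulAut.conjNormal g n : N).2⟩ =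
            (mu (resTo hNJ (χ : J → ℂ)) (φ : N → ℂ) : ℂ) * (φ : N → ℂ) (MulAut.conjNormal g n) := h3
          have h8 : (χ : J → ℂ) ⟨n, hNJ n.2⟩ =
            (mu (resTo hNJ (χ : J → ℂ)) (φ : N → ℂ) : ℂ) * (φ : N → ℂ) n := h2
          rw [← h7, ← h8, h5]
        refine Eq.trans ?_ h6
        congr 1
      exact mul_left_cancel₀ hmu0 h1
  obtain ⟨ψ, h1, h2, h3, h4⟩ := of_inertia' hM J hidx hk χ (hmem.2 hφ) hχk J hIJ le_rfl
    (π := (χ : J → ℂ)) (GC.of_irr χ.2) hχk (by
      have h5 : mu (resTo (le_refl J) (χ : J → ℂ)) (χ : J → ℂ) = 1 := mu_eq (by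
        have h6 : resTo (le_refl J) (χ : J → ℂ) = (χ : J → ℂ) := rfl
        rw [h6, classInner_irr_self χ.2, Int.cast_one])
      rw [h5]
      exact odd_one) (Or.inl (hdeg.2 heven))
  refine H611.EB.ConclF.descend N J hNJ (F := fun θ => θ = χ)
    ⟨ψ, h1, h2, h3, χ, rfl, hχk, h4⟩ ?_
  rintro χ' φ' rfl - hover' h1'
  have h6 : classInner (φ : N → ℂ) (φ' : N → ℂ) ≠ 0 := by
    intro h7
    apply hover'
    rw [hres, classInner_smul_left, h7, mul_zero]
  have h7 : φ = φ' := by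
    by_contra hne
    exact h6 (classInner_irr_ne φ.2 φ'.2 (fun h => hne (Subtype.ext h)))
  apply ne_one_of_even heven
  rw [h7]
  exact h1'

end Cfsg.Agent.H352.EB
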