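import Cfsg.Agent.H694.EB.TwoChain

/-!
# Criterion (F): a generalized character of a Sylow 2-subgroup with an induced character of odd norm (helper352)

Generalization of criterion (T) of helper694 (`F = 1_V^U`). `S` finite such that every character outside the principal
2-block has defect zero, `U` a Sylow 2-subgroup, `F` a generalized character of `U`, `F 1` even, `F` invariant under the
automorphisms of `S` which preserve `U`, and the norm of the induced class function odd. Then `EvenJ S`.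
-/

set_option autoImplicit false
set_option linter.unusedSectionVars false
set_option linter.style.haveILetI false

namespace Cfsg.Agent.H352.EB

open Cfsg Cfsg.Agent.Characters Cfsg.Agent.H694 Cfsg.Agent.H684.EB Cfsg.Agent.H610.EB
open Cfsg.Agent.H610 Cfsg.Agent.H611.EB Cfsg.Agent.H694.EB
open scoped ComplexConjugate
open Cfsg.Agent.Characters.Core
open Cfsg.Agent.OddOrderCharacters.NormalInduced (conjFn)
open Cfsg.Agent.OddOrderCharacters.PF9.CliffGen (resTo irr_ind)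
open Cfsg.Agent.Blocks.Local Cfsg.Agent.Blocks.Basic
open Cfsg.Agent.Blocks.Covering (conjIrr conjIrr_apply)
open Cfsg.Agent.OddOrderCharacters.InducedNormal (extendByZero_mem extendByZero_not_mem)

universe u v

/-- transport of induced functions along an isomorphism -/
theorem indFun_transport {S : Type u} {N : Type v} [Group S] [Group N] [Fintype S] [Fintype N] (e : S ≃* N)
    (U : Subgroup S) (V : Subgroup N) (hUV : ∀ s, s ∈ U ↔ e s ∈ V) (F : U → ℂ) (F' : V → ℂ)
    (hF : ∀ (s : S) (hs : s ∈ U) (hs' : e s ∈ V), F' ⟨e s, hs'⟩ = F ⟨s, hs⟩) (s : S) :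
    indFun V F' (e s) = indFun U F s := by
  unfold indFun
  have hc : Nat.card V = Nat.card U := by
    refine Nat.card_congr ⟨fun x => ⟨e.symm x, (hUV _).2 (by rw [e.apply_symm_apply]; exact x.2)⟩,
      fun x => ⟨e x, (hUV _).1 x.2⟩, fun x => Subtype.ext (e.apply_symm_apply _), fun x => Subtype.ext (e.symm_apply_apply _)⟩
  rw [hc]
  congr 1
  symm
  refine Fintype.sum_equiv e.toEquiv _ _ fun x => ?_
  show extendByZero U F (x⁻¹ * s * x) = extendByZero V F' ((e x)⁻¹ * e s * e x)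
  have h1 : (e x)⁻¹ * e s * e x = e (x⁻¹ * s * x) := by
    rw [map_mul, map_mul, map_inv]
  rw [h1]
  by_cases h2 : x⁻¹ * s * x ∈ U
  · rw [extendByZero_mem U _ h2, extendByZero_mem V _ ((hUV _).1 h2), hF]
  · rw [extendByZero_not_mem U _ h2, extendByZero_not_mem V _ (fun h => h2 ((hUV _).2 h))]

section ext

variable {G : Type u} [Group G] [Fintype G] {k : ℕ}

/-- **The odd extension property from a generalized character `F` of a 2-subgroup** `V` normal in a Sylow 2-subgroup. -/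
theorem cycExt_of_gc (hk : IsK G k) (J : Subgroup G) [hJ : J.Normal] [Fintype J]
    (hidx : ∃ j : ℕ, J.index = 2 ^ j) (P : Sylow 2 G) (V : Subgroup G) [Fintype V] (hVJ : V ≤ J)
    (hVP : V ≤ P) (hVn : ∀ d ∈ (P : Subgroup G), ∀ v ∈ V, d * v * d⁻¹ ∈ V) {Φ : V → ℂ} (hΦ : GC Φ)
    (hΦi : ∀ d ∈ (P : Subgroup G), ∀ (v : G) (hv : v ∈ V) (hv' : d * v * d⁻¹ ∈ V), Φ ⟨d * v * d⁻¹, hv'⟩ = Φ ⟨v, hv⟩)
    {χ : J → ℂ} (hχ : IsIrrCharacter J χ) (hinv : ∀ g, conjFn J χ g = χ) {a : ℤ}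
    (ha : classInner Φ (resTo hVJ χ) = a) (hodd : Odd a) (g : G) :
    CycExt J k χ g := by
  classical
  haveI : Fact (Nat.Prime 2) := ⟨Nat.prime_two⟩
  set Q : Subgroup G := (P : Subgroup G) ⊓ (J ⊔ Subgroup.zpowers g) with hQ
  letI iQ : Fintype Q := Fintype.ofFinite _
  have hQP : IsPGroup 2 Q := P.isPGroup'.to_le inf_le_left
  -- `J Q = J⟨g⟩`
  have hJQ : J ⊔ Subgroup.zpowers g ≤ J ⊔ Q := by
    intro x hx
    have h1 : x ∈ J ⊔ (P : Subgroup G) := by
      rw [sup_sylow J hidx P]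
      exact Subgroup.mem_top x
    obtain ⟨y, hy, z, hz, rfl⟩ := Subgroup.mem_sup_of_normal_left.1 h1
    have hz' : z ∈ Q := by
      refine ⟨hz, ?_⟩
      have h2 := (J ⊔ Subgroup.zpowers g).mul_mem
        ((J ⊔ Subgroup.zpowers g).inv_mem ((le_sup_left : J ≤ J ⊔ Subgroup.zpowers g) hy)) hx
      rwa [inv_mul_cancel_left] at h2
    exact (J ⊔ Q).mul_mem ((le_sup_left : J ≤ J ⊔ Q) hy) ((le_sup_right : Q ≤ J ⊔ Q) hz')
  set Uh : Subgroup G := J ⊓ Q with hUh
  letI iU : Fintype Uh := Fintype.ofFinite _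
  have hVU : V ≤ Uh := le_inf hVJ (le_inf hVP (hVJ.trans le_sup_left))
  set D : Subgroup Q := J.subgroupOf Q with hD
  letI iD : Fintype D := Fintype.ofFinite _
  haveI hDn : D.Normal := hJ.subgroupOf Q
  have hcyc : IsCyclic (Q ⧸ D) := by
    have hf : ∀ x : Q, (x : G) ∈ J ⊔ Subgroup.zpowers g := fun x => x.2.2
    let H : Subgroup G := J ⊔ Subgroup.zpowers g
    let f : Q ⧸ D →* H ⧸ J.subgroupOf H :=
      QuotientGroup.map D (J.subgroupOf H) (Subgroup.inclusion (inf_le_right : Q ≤ H)) (fun x hx => hx)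
    haveI := isCyclic_sup J g
    refine isCyclic_of_injective f ?_
    rw [injective_iff_map_eq_one]
    intro x
    obtain ⟨y, rfl⟩ := QuotientGroup.mk_surjective x
    intro hx
    rw [QuotientGroup.eq_one_iff]
    have h1 : (QuotientGroup.mk (Subgroup.inclusion (inf_le_right : Q ≤ H) y) : H ⧸ J.subgroupOf H) = 1 := hx
    have h2 := (QuotientGroup.eq_one_iff (Subgroup.inclusion (inf_le_right : Q ≤ H) y)).1 h1
    exact Subgroup.mem_subgroupOf.2 (Subgroup.mem_subgroupOf.1 h2)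
  -- the two characters of `D`
  let f₀ : D →* J :=
    { toFun := fun d => ⟨((d : Q) : G), Subgroup.mem_subgroupOf.1 d.2⟩
      map_one' := rfl
      map_mul' := fun _ _ => rfl }
  set F : D → ℂ := fun d => χ (f₀ d) with hF
  have hFc : IsCharacter D F := isCharacter_comp f₀ (isIrr_isCharacter hχ)
  set VD : Subgroup D := (V.subgroupOf Q).subgroupOf D with hVD
  letI iV : Fintype VD := Fintype.ofFinite _
  have hmV : ∀ d : D, d ∈ VD ↔ ((d : Q) : G) ∈ V := by
    intro d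
    rw [hVD, Subgroup.mem_subgroupOf, Subgroup.mem_subgroupOf]
  let ε : VD ≃ V :=
    { toFun := fun x => ⟨(((x : D) : Q) : G), (hmV _).1 x.2⟩
      invFun := fun v => ⟨⟨⟨v, (hVU v.2).2⟩, Subgroup.mem_subgroupOf.2 (hVJ v.2)⟩, (hmV _).2 v.2⟩
      left_inv := fun x => rfl
      right_inv := fun x => rfl }
  let εh : VD →* V :=
    { toFun := ε
      map_one' := rfl
      map_mul' := fun _ _ => rfl }
  have hone : GC (fun x : VD => Φ (ε x)) := hΦ.comp εh
  have hπc : GC (indFun VD (fun x : VD => Φ (ε x))) := hone.indFun VD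
  have hVDn : ∀ (d : Q) (s : D), (s ∈ VD ↔ MulAut.conjNormal d s ∈ VD) := by
    intro d s
    rw [hmV, hmV, MulAut.conjNormal_apply]
    show ((s : Q) : G) ∈ V ↔ (d : G) * ((s : Q) : G) * (d : G)⁻¹ ∈ V
    constructor
    · exact fun h => hVn _ d.2.1 _ h
    · intro h
      have h2 := hVn _ ((P : Subgroup G).inv_mem d.2.1) _ h
      have h3 : (d : G)⁻¹ * ((d : G) * ((s : Q) : G) * (d : G)⁻¹) * ((d : G)⁻¹)⁻¹ = ((s : Q) : G) := by
        group
      rwa [h3] at h2
  have hπi : ∀ (d : Q) (s : D), indFun VD (fun x : VD => Φ (ε x)) (MulAut.conjNormal d s) =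
      indFun VD (fun x : VD => Φ (ε x)) s := by
    intro d s
    refine indFun_transport (MulAut.conjNormal d : MulAut D) VD VD (hVDn d) _ _ (fun t ht ht' => ?_) s
    have h1 : ((((MulAut.conjNormal d : MulAut D) t : D) : Q) : G) = (d : G) * ((t : Q) : G) * (d : G)⁻¹ := by
      rw [MulAut.conjNormal_apply]
      rfl
    have h2 : (d : G) * ((t : Q) : G) * (d : G)⁻¹ ∈ V := by
      rw [← h1]
      exact (hmV _).1 ht'
    have h3 := hΦi (d : G) d.2.1 ((t : Q) : G) ((hmV _).1 ht) h2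
    refine Eq.trans ?_ h3
    show Φ _ = Φ _
    congr 1
  have hFi : ∀ (d : Q) (s : D), F (MulAut.conjNormal d s) = F s := by
    intro d s
    have h1 := congrFun (hinv (d : G)) (f₀ s)
    refine Eq.trans ?_ h1
    show χ _ = χ _
    congr 1
  have hin : classInner (indFun VD (fun x : VD => Φ (ε x))) F = a := by
    rw [Cfsg.Agent.OddOrderCharacters.Clifford.classInner_indFun _ _ _
      (isCharacter_isClassFunction hFc), ← ha]
    exact Cfsg.Agent.H610.EB.classInner_equiv ε Φ (resTo hVJ χ)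
  obtain ⟨η, hη, hηo⟩ := exists_ext (P := Q) hQP D hcyc hπc (GC.of_isCharacter hFc) hπi hFi hin hodd
  refine CycExt.of_sub hk J g Q inf_le_right hJQ Uh inf_le_left inf_le_right le_rfl
    (GC.of_irr hη) (fun t => by rw [hk.pow_eq hQP t]) hχ ?_
  let ε' : D ≃ Uh :=
    { toFun := fun x => ⟨((x : Q) : G), Subgroup.mem_subgroupOf.1 x.2, (x : Q).2⟩
      invFun := fun x => ⟨⟨x, x.2.2⟩, Subgroup.mem_subgroupOf.2 x.2.1⟩
      left_inv := fun x => rfl
      right_inv := fun x => rfl }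
  have h5 : mu (resTo (inf_le_right : Uh ≤ Q) η) (resTo (inf_le_left : Uh ≤ J) χ) =
      mu (fun d : D => η d) F := by
    rw [mu, mu, ← Cfsg.Agent.H610.EB.classInner_equiv ε']
    rfl
  rw [h5]
  exact hηo

end ext

section one

variable {N : Type u} [Group N] [Fintype N] (U : Subgroup N) (F : U → ℂ)

/-- invariance of the induced class function -/
theorem ind_aut [Fintype U] (hF : GC F) (hU : IsPGroup 2 U) (hUi : Odd U.index)
    (hFα : ∀ α : N ≃* N, U.map α.toMonoidHom = U → ∀ (u : N) (hu : u ∈ U) (hu' : α u ∈ U), F ⟨α u, hu'⟩ = F ⟨u, hu⟩)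
    (α : N ≃* N) (n : N) : indFun U F (α n) = indFun U F n := by
  obtain ⟨m, hm⟩ := exists_conj_sylow U hU hUi α
  have h1 := indFun_transport (α.trans (MulAut.conj m : N ≃* N)) U U (fun s => by
    constructor
    · intro hs
      have h2 : (α.trans (MulAut.conj m : N ≃* N)) s ∈ U.map (α.trans (MulAut.conj m : N ≃* N)).toMonoidHom :=
        ⟨s, hs, rfl⟩
      rwa [hm] at h2
    · intro hs
      rw [← hm] at hs
      obtain ⟨t, ht, hts⟩ := hs
      have h3 : t = s := (α.trans (MulAut.conj m : N ≃* N)).injective hts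
      rwa [← h3]) F F (fun s hs hs' => hFα _ hm s hs hs') n
  rw [← h1]
  exact ((hF.indFun U).cf (α n) m).symm

/-- The multiplicity of a character of defect zero is even. -/
theorem even_of_defectZero [Fintype U] (hF : GC F) (hU : IsPGroup 2 U) {b : ℤ} (hb : F 1 = b)
    (hbe : Even b) (φ : IrrCharacter N) (h0 : ∀ g : N, Even (orderOf g) → (φ : N → ℂ) g = 0)
    (hd : (Nat.card N).factorization 2 = (charDegree (φ : N → ℂ)).factorization 2) :
    Even (mu (indFun U F) (φ : N → ℂ)) := by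
  classical
  have h1 : ∀ v : U, v ≠ 1 → (φ : N → ℂ) v = 0 := by
    intro v hv
    apply h0
    obtain ⟨n, hn⟩ := hU v
    obtain ⟨i, -, hi⟩ := (Nat.dvd_prime_pow Nat.prime_two).1 (orderOf_dvd_of_pow_eq_one hn)
    rw [Subgroup.orderOf_coe, hi]
    refine even_two.pow_of_ne_zero ?_
    rintro rfl
    rw [pow_zero, orderOf_eq_one_iff] at hi
    exact hv hi
  have h2 : classInner (indFun U F) (φ : N → ℂ) = (Nat.card U : ℂ)⁻¹ * (b * charDegree (φ : N → ℂ)) := by
    rw [Cfsg.Agent.OddOrderCharacters.Clifford.classInner_indFun U _ _ (isIrr_isClassFunction φ.2), Core.classInner_def]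
    congr 1
    rw [Finset.sum_eq_single 1]
    · rw [hb]
      show (b : ℂ) * conj ((φ : N → ℂ) 1) = _
      rw [irr_one_eq_charDegree φ.2, map_natCast]
    · intro v _ hv
      rw [h1 v hv, map_zero, mul_zero]
    · intro h
      exact absurd (Finset.mem_univ _) h
  have h3 := (hF.indFun U).mu_spec φ.2
  rw [h2] at h3
  have hV0 : (Nat.card U : ℂ) ≠ 0 := card_ne_zero_complex
  have h4 : (b * charDegree (φ : N → ℂ) : ℤ) = Nat.card U * mu (indFun U F) (φ : N → ℂ) := by
    have h5 : (b * charDegree (φ : N → ℂ) : ℂ) = Nat.card U * (mu (indFun U F) (φ : N → ℂ) : ℂ) := by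
      rw [← h3]
      field_simp
    exact_mod_cast h5
  obtain ⟨m, hm⟩ := IsPGroup.iff_card.1 hU
  have hUd : Nat.card U ∣ charDegree (φ : N → ℂ) := by
    have h5 : Nat.card U * U.index = Nat.card N := Subgroup.card_mul_index U
    have hpos : charDegree (φ : N → ℂ) ≠ 0 := by
      intro h6
      have h7 := isIrr_apply_one_ne_zero φ.2
      rw [irr_one_eq_charDegree φ.2, h6] at h7
      exact h7 (by simp)
    rw [hm, Nat.Prime.pow_dvd_iff_le_factorization Nat.prime_two hpos, ← hd, ← h5, hm]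
    rw [Nat.factorization_mul (by positivity) Subgroup.index_ne_zero_of_finite]
    rw [Finsupp.add_apply, Nat.factorization_pow, Finsupp.smul_apply, Nat.prime_two.factorization_self]
    simp
  obtain ⟨c, hc⟩ := hUd
  have hVz : (Nat.card U : ℤ) ≠ 0 := by exact_mod_cast Nat.card_pos.ne'
  have h7 : (Nat.card U : ℤ) * mu (indFun U F) (φ : N → ℂ) = Nat.card U * (b * c) := by
    rw [← h4, hc]
    push_cast
    ring
  rw [mul_left_cancel₀ hVz h7]
  exact hbe.mul_right _

end one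

section chain

variable {G : Type u} [Group G] [Fintype G] {M : Ideal AlgInt} {k : ℕ}
variable (N J : Subgroup G) [hN : N.Normal] [hJ : J.Normal] [Fintype N] [Fintype J] (hNJ : N ≤ J)

/-- A class function of `N` induced to `J`. -/
noncomputable def indJ (Ψ : N → ℂ) : J → ℂ :=
  indFun (N.subgroupOf J) (fun x => Ψ (Subgroup.subgroupOfEquivOfLe hNJ x))

theorem gc_indJ {Ψ : N → ℂ} (hΨ : GC Ψ) : GC (indJ N J hNJ Ψ) := by
  haveI : Fintype (N.subgroupOf J) := Fintype.ofFinite _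
  exact (hΨ.comp (Subgroup.subgroupOfEquivOfLe hNJ).toMonoidHom).indFun _

theorem indJ_pow (hk : IsK G k) {Ψ : N → ℂ} (hΨk : ∀ n, Ψ (n ^ k) = Ψ n) (x : J) :
    indJ N J hNJ Ψ (x ^ k) = indJ N J hNJ Ψ x := by
  refine indFun_pow _ (hk.sub J) (fun t => ?_) x
  rw [map_pow, hΨk]

theorem indJ_inner (Ψ : N → ℂ) {χ : J → ℂ} (hχ : IsClassFunction J χ) :
    classInner (indJ N J hNJ Ψ) χ = classInner Ψ (resTo hNJ χ) := by
  haveI : Fintype (N.subgroupOf J) := Fintype.ofFinite _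
  unfold indJ
  rw [Cfsg.Agent.OddOrderCharacters.Clifford.classInner_indFun _ _ _ hχ]
  exact Cfsg.Agent.H610.EB.classInner_equiv (Subgroup.subgroupOfEquivOfLe hNJ).toEquiv
    Ψ (resTo hNJ χ)

theorem indJ_mem {Ψ : N → ℂ} (hinv : ∀ (g : G) (n : N), Ψ (MulAut.conjNormal g n) = Ψ n)
    {x : J} (hx : (x : G) ∈ N) : indJ N J hNJ Ψ x = (N.relIndex J : ℂ) * Ψ ⟨x, hx⟩ := by
  unfold indJ indFun
  have h1 : ∀ y : J, extendByZero (N.subgroupOf J)
      (fun z => Ψ (Subgroup.subgroupOfEquivOfLe hNJ z)) (y⁻¹ * x * y) = Ψ ⟨x, hx⟩ := by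
    intro y
    have h2 : y⁻¹ * x * y ∈ N.subgroupOf J := by
      rw [Subgroup.mem_subgroupOf]
      have h3 := hN.conj_mem _ hx ((y : G)⁻¹)
      rw [inv_inv] at h3
      exact h3
    rw [extendByZero_mem _ _ h2, ← hinv ((y : G)⁻¹) ⟨x, hx⟩]
    congr 1
    apply Subtype.ext
    rw [MulAut.conjNormal_apply, inv_inv]
    rfl
  rw [Finset.sum_congr rfl fun y _ => h1 y, Finset.sum_const, Finset.card_univ, nsmul_eq_mul,
    ← mul_assoc, ← Nat.card_eq_fintype_card]
  congr 1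
  have h4 : Nat.card (N.subgroupOf J) * N.relIndex J = Nat.card J :=
    Subgroup.card_mul_index (N.subgroupOf J)
  have h5 : (Nat.card (N.subgroupOf J) : ℂ) ≠ 0 := card_ne_zero_complex
  rw [← h4]
  push_cast
  field_simp

theorem indJ_not_mem (Ψ : N → ℂ) {x : J} (hx : (x : G) ∉ N) : indJ N J hNJ Ψ x = 0 := by
  unfold indJ indFun
  rw [Finset.sum_eq_zero, mul_zero]
  intro y _
  refine extendByZero_not_mem _ _ fun h2 => hx ?_
  rw [Subgroup.mem_subgroupOf] at h2
  have h3 := hN.conj_mem _ h2 (y : G)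
  have h4 : (y : G) * ((y⁻¹ * x * y : J) : G) * (y : G)⁻¹ = x := by
    push_cast
    group
  rwa [h4] at h3

theorem indJ_conj {Ψ : N → ℂ} (hinv : ∀ (g : G) (n : N), Ψ (MulAut.conjNormal g n) = Ψ n)
    (g : G) (x : J) : indJ N J hNJ Ψ (MulAut.conjNormal g x) = indJ N J hNJ Ψ x := by
  by_cases hx : (x : G) ∈ N
  · have hx' : ((MulAut.conjNormal g x : J) : G) ∈ N := by
      rw [MulAut.conjNormal_apply]
      exact hN.conj_mem _ hx g
    rw [indJ_mem N J hNJ hinv hx, indJ_mem N J hNJ hinv hx', ← hinv g ⟨x, hx⟩]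
    congr 2
  · have hx' : ((MulAut.conjNormal g x : J) : G) ∉ N := by
      intro h
      apply hx
      rw [MulAut.conjNormal_apply] at h
      have h1 := hN.conj_mem _ h g⁻¹
      have h2 : g⁻¹ * (g * x * g⁻¹) * g⁻¹⁻¹ = x := by group
      rwa [h2] at h1
    rw [indJ_not_mem N J hNJ Ψ hx, indJ_not_mem N J hNJ Ψ hx']

theorem resTo_indJ {Ψ : N → ℂ} (hinv : ∀ (g : G) (n : N), Ψ (MulAut.conjNormal g n) = Ψ n) :
    resTo hNJ (indJ N J hNJ Ψ) = ((N.relIndex J : ℤ) : ℂ) • Ψ := by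
  funext n
  show indJ N J hNJ Ψ ⟨n, hNJ n.2⟩ = ((N.relIndex J : ℤ) : ℂ) * Ψ n
  rw [indJ_mem N J hNJ hinv n.2]
  push_cast
  rfl

include hNJ in
/-- **Criterion (F).** -/
theorem concl_of_gc (hM : IsPModular 2 M) (hodd : Odd (N.relIndex J))
    (hidx : ∃ j : ℕ, J.index = 2 ^ j) (hk : IsK G k) (hdz : DZ N) (U : Subgroup N) [Fintype U]
    (hU : IsPGroup 2 U) (hUi : Odd U.index) {F : U → ℂ} (hF : GC F) {b : ℤ} (hb : F 1 = b) (hbe : Even b)
    (hFα : ∀ α : N ≃* N, U.map α.toMonoidHom = U → ∀ (u : N) (hu : u ∈ U) (hu' : α u ∈ U), F ⟨α u, hu'⟩ = F ⟨u, hu⟩)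
    {a : ℤ} (ha : classInner (indFun U F) (indFun U F) = a) (hao : Odd a) : Concl M G N k := by
  classical
  haveI : Fact (Nat.Prime 2) := ⟨Nat.prime_two⟩
  haveI := @Fintype.ofFinite (IrrCharacter N) finite_irr
  set Ψ : N → ℂ := indFun U F with hΨdef
  have gΨ : GC Ψ := hF.indFun U
  have hΨk : ∀ n, Ψ (n ^ k) = Ψ n := fun n =>
    indFun_pow U (hk.sub N) (fun t => by rw [(hk.sub N).pow_eq hU t]) n
  have hinv : ∀ (g : G) (n : N), Ψ (MulAut.conjNormal g n) = Ψ n := fun g n =>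
    ind_aut U F hF hU hUi hFα (MulAut.conjNormal g : MulAut N) n
  have hΨ1 : Ψ 1 = (((U.index : ℤ) * b : ℤ) : ℂ) := by
    rw [hΨdef, Cfsg.Agent.OddOrderCharacters.IndRes.indFun_apply_one, hb]
    push_cast
    rfl
  -- the count over `N`
  have hc1 : Odd (Nat.card {φ : IrrCharacter N // Even (charDegree (φ : N → ℂ)) ∧
      Odd (mu Ψ (φ : N → ℂ))}) :=
    (odd_card_iff gΨ (a := a) (b := (U.index : ℤ) * b) ha hΨ1).2 (hao.add_even (hbe.mul_left _))
  have hmem : ∀ φ : IrrCharacter N, Odd (mu Ψ (φ : N → ℂ)) → φ ∈ principalBlock M N := by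
    intro φ h1
    by_contra h2
    obtain ⟨h3, h4⟩ := hdz M hM φ h2
    exact (Int.not_even_iff_odd.2 h1) (even_of_defectZero U F hF hU hb hbe φ h3 h4)
  have hc2 : Odd (Nat.card {φ : IrrCharacter N // φ ∈ principalBlock M N ∧
      Even (charDegree (φ : N → ℂ)) ∧ Odd (mu Ψ (φ : N → ℂ))}) := by
    have h1 : (fun φ : IrrCharacter N => φ ∈ principalBlock M N ∧
        Even (charDegree (φ : N → ℂ)) ∧ Odd (mu Ψ (φ : N → ℂ))) =
        fun φ : IrrCharacter N => Even (charDegree (φ : N → ℂ)) ∧ Odd (mu Ψ (φ : N → ℂ)) := by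
      funext φ
      apply propext
      exact ⟨fun h => h.2, fun h => ⟨hmem φ h.2, h⟩⟩
    have h2 := congrArg (fun q : IrrCharacter N → Prop => Nat.card {φ // q φ}) h1
    have h3 : Nat.card {φ : IrrCharacter N // φ ∈ principalBlock M N ∧
      Even (charDegree (φ : N → ℂ)) ∧ Odd (mu Ψ (φ : N → ℂ))} = Nat.card {φ : IrrCharacter N //
        Even (charDegree (φ : N → ℂ)) ∧ Odd (mu Ψ (φ : N → ℂ))} := h2
    rw [h3]
    exact hc1
  -- the multiplicities in the restriction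
  have hmres : ∀ φ : IrrCharacter N, (Odd (mu (resTo hNJ (indJ N J hNJ Ψ)) (φ : N → ℂ)) ↔
      Odd (mu Ψ (φ : N → ℂ))) := by
    intro φ
    have h1 : mu (resTo hNJ (indJ N J hNJ Ψ)) (φ : N → ℂ) =
        (N.relIndex J : ℤ) * mu Ψ (φ : N → ℂ) := by
      apply mu_eq
      rw [resTo_indJ N J hNJ hinv, classInner_smul_left, gΨ.mu_spec φ.2]
      push_cast
      ring
    rw [h1, Int.odd_mul]
    have h2 : Odd (N.relIndex J : ℤ) := by exact_mod_cast hodd
    exact ⟨fun h => h.2, fun h => ⟨h2, h⟩⟩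
  have hπk : ∀ x : J, indJ N J hNJ Ψ (x ^ k) = indJ N J hNJ Ψ x := indJ_pow N J hNJ hk hΨk
  have hfacts : ∀ (χ : IrrCharacter J) (φ : IrrCharacter N),
      (∀ g : J, (χ : J → ℂ) (g ^ k) = (χ : J → ℂ) g) →
      classInner (resTo hNJ (χ : J → ℂ)) (φ : N → ℂ) ≠ 0 →
      ((χ ∈ principalBlock M J ∧ Even (charDegree (χ : J → ℂ)) ∧
        Odd (mu (indJ N J hNJ Ψ) (χ : J → ℂ))) ↔
      (φ ∈ principalBlock M N ∧ Even (charDegree (φ : N → ℂ)) ∧ Odd (mu Ψ (φ : N → ℂ)))) := by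
    intro χ φ h2 h4
    obtain ⟨f1, f2, f3⟩ := chain_facts N J hNJ hM hodd hk χ φ h2 h4
    rw [f1, f2, f3 _ (gc_indJ N J hNJ gΨ) hπk, hmres]
  have h1 := card_up' N J hNJ hodd hk
    (fun φ : IrrCharacter N => φ ∈ principalBlock M N ∧
      Even (charDegree (φ : N → ℂ)) ∧ Odd (mu Ψ (φ : N → ℂ)))
    (fun χ : IrrCharacter J => χ ∈ principalBlock M J ∧
      Even (charDegree (χ : J → ℂ)) ∧ Odd (mu (indJ N J hNJ Ψ) (χ : J → ℂ)))
    (by
      rintro φ ⟨h1, h2, h3⟩
      refine ⟨pw_mem (hk.sub N) h1, by rwa [charDegree_pw (hk.sub N)], ?_⟩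
      rwa [mu_pow (hk.sub N) hΨk])
    (by
      rintro φ ⟨h1, h2, h3⟩
      refine ⟨pw_mem (hk.sub J) h1, by rwa [charDegree_pw (hk.sub J)], ?_⟩
      rwa [mu_pow (hk.sub J) hπk])
    (fun χ φ h2 _ h4 => hfacts χ φ h2 h4)
  have hc3 : Odd (Nat.card {χ : IrrCharacter J // χ ∈ principalBlock M J ∧
      Even (charDegree (χ : J → ℂ)) ∧ Odd (mu (indJ N J hNJ Ψ) (χ : J → ℂ))}) := by
    rw [← Nat.not_even_iff_odd, even_iff_two_dvd, ← ZMod.natCast_eq_zero_iff, ← h1,
      ZMod.natCast_eq_zero_iff, ← even_iff_two_dvd, Nat.not_even_iff_odd]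
    exact hc2
  obtain ⟨χ, ⟨hχ1, hχ2, hχ3⟩, hχ4, hχ5⟩ := exists_inv J hidx hk ⊤
    (fun χ : IrrCharacter J => χ ∈ principalBlock M J ∧ Even (charDegree (χ : J → ℂ)) ∧
      Odd (mu (indJ N J hNJ Ψ) (χ : J → ℂ)))
    (by
      rintro d - φ ⟨h1, h2, h3⟩
      exact ⟨conjIrr_mem J d h1, by rwa [charDegree_conjIrr], by
        rwa [mu_conj_of_inv J d (indJ_conj N J hNJ hinv d)]⟩)
    (by
      rintro φ ⟨h1, h2, h3⟩
      refine ⟨pw_mem (hk.sub J) h1, by rwa [charDegree_pw (hk.sub J)], ?_⟩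
      rwa [mu_pow (hk.sub J) hπk]) hc3
  have hχk := (Twist.fixed_iff (hk.sub J).coprime χ).1 hχ5
  have hχinv : ∀ g, conjFn J (χ : J → ℂ) g = χ := fun g =>
    congrArg Subtype.val (hχ4 g (Subgroup.mem_top g))
  -- the Sylow 2-subgroup of `G`
  set Uh : Subgroup G := U.map N.subtype with hUh
  haveI : Fintype Uh := Fintype.ofFinite _
  have hUhJ : Uh ≤ J := by
    rintro _ ⟨v, _, rfl⟩
    exact hNJ v.2
  obtain ⟨P, hUP⟩ := (hU.map N.subtype).exists_le_sylow
  -- `U = N ∩ P`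
  have hUN : ∀ n : N, (n : G) ∈ (P : Subgroup G) → n ∈ U := by
    have hP2 : IsPGroup 2 ((P : Subgroup G).subgroupOf N) := by
      refine P.isPGroup'.of_injective ((N.subtype.comp (Subgroup.subtype _)).codRestrict
        (P : Subgroup G) (fun x => Subgroup.mem_subgroupOf.1 x.2)) ?_
      intro x y hxy
      have h1 := congrArg Subtype.val hxy
      exact Subtype.ext (Subtype.ext h1)
    have hle : U ≤ (P : Subgroup G).subgroupOf N := by
      intro u hu
      exact Subgroup.mem_subgroupOf.2 (hUP ⟨u, hu, rfl⟩)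
    obtain ⟨m, hm⟩ := IsPGroup.iff_card.1 hP2
    have h5 : Nat.card U * U.relIndex ((P : Subgroup G).subgroupOf N) =
        Nat.card ((P : Subgroup G).subgroupOf N) := by
      have := Subgroup.card_mul_index (U.subgroupOf ((P : Subgroup G).subgroupOf N))
      rw [Nat.card_congr (Subgroup.subgroupOfEquivOfLe hle).toEquiv] at this
      exact this
    have h6 : U.relIndex ((P : Subgroup G).subgroupOf N) ∣ 2 ^ m := by
      rw [← hm, ← h5]
      exact dvd_mul_left _ _
    obtain ⟨i, -, hi⟩ := (Nat.dvd_prime_pow Nat.prime_two).1 h6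
    have h7 : U.relIndex ((P : Subgroup G).subgroupOf N) ∣ U.index := by
      rw [← Subgroup.relIndex_mul_index hle]
      exact dvd_mul_right _ _
    have hi0 : i = 0 := by
      by_contra h0
      have h8 : Odd (U.relIndex ((P : Subgroup G).subgroupOf N)) := hUi.of_dvd_nat h7
      rw [hi] at h8
      exact (Nat.not_even_iff_odd.2 h8) (even_two.pow_of_ne_zero h0)
    rw [hi0, pow_zero, Subgroup.relIndex_eq_one] at hi
    intro n hn
    exact hi (Subgroup.mem_subgroupOf.2 hn)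
  have key : ∀ e ∈ (P : Subgroup G), ∀ u ∈ U, (MulAut.conjNormal e : MulAut N) u ∈ U := by
    intro e he u hu
    apply hUN
    rw [MulAut.conjNormal_apply]
    exact (P : Subgroup G).mul_mem ((P : Subgroup G).mul_mem he (hUP ⟨u, hu, rfl⟩))
      ((P : Subgroup G).inv_mem he)
  have hmapU : ∀ d ∈ (P : Subgroup G), U.map (MulAut.conjNormal d : N ≃* N).toMonoidHom = U := by
    intro d hd
    ext x
    constructor
    · rintro ⟨u, hu, rfl⟩
      exact key d hd u hu
    · intro hx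
      refine ⟨(MulAut.conjNormal d⁻¹ : MulAut N) x, key _ ((P : Subgroup G).inv_mem hd) x hx, ?_⟩
      show (MulAut.conjNormal d : MulAut N) ((MulAut.conjNormal d⁻¹ : MulAut N) x) = x
      rw [← MulAut.mul_apply, ← map_mul, mul_inv_cancel, map_one]
      rfl
  have hVn : ∀ d ∈ (P : Subgroup G), ∀ v ∈ Uh, d * v * d⁻¹ ∈ Uh := by
    rintro d hd _ ⟨v, hv, rfl⟩
    refine ⟨_, key d hd v hv, ?_⟩
    show ((MulAut.conjNormal d v : N) : G) = _
    rw [MulAut.conjNormal_apply]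
    rfl
  -- the class function on `Uh`
  let εV : U ≃* Uh := U.equivMapOfInjective N.subtype N.subtype_injective
  have gΦ : GC (fun x : Uh => F (εV.symm x)) := hF.comp εV.symm.toMonoidHom
  have hεs : ∀ (n : N) (hn : n ∈ U) (h' : (n : G) ∈ Uh), εV.symm ⟨(n : G), h'⟩ = ⟨n, hn⟩ := by
    intro n hn h'
    apply εV.injective
    rw [MulEquiv.apply_symm_apply]
    rfl
  have hΦi : ∀ d ∈ (P : Subgroup G), ∀ (v : G) (hv : v ∈ Uh) (hv' : d * v * d⁻¹ ∈ Uh),
      F (εV.symm ⟨d * v * d⁻¹, hv'⟩) = F (εV.symm ⟨v, hv⟩) := by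
    rintro d hd v hv hv'
    obtain ⟨n, hn, rfl⟩ := hv
    have h8 : (MulAut.conjNormal d : MulAut N) n ∈ U := key d hd n hn
    have h9 : (((MulAut.conjNormal d : MulAut N) n : N) : G) = d * (n : G) * d⁻¹ := MulAut.conjNormal_apply d n
    have h10 := hFα (MulAut.conjNormal d : MulAut N) (hmapU d hd) n hn h8
    have h11 : εV.symm ⟨d * (N.subtype n) * d⁻¹, hv'⟩ = ⟨(MulAut.conjNormal d : MulAut N) n, h8⟩ := by
      rw [← hεs _ h8 (by rw [h9]; exact hv')]
      congr 1
    rw [h11, h10]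
    congr 1
    exact (hεs n hn _).symm
  have hin : classInner (fun x : Uh => F (εV.symm x)) (resTo hUhJ (χ : J → ℂ)) =
      (mu (indJ N J hNJ Ψ) (χ : J → ℂ) : ℂ) := by
    rw [← (gc_indJ N J hNJ gΨ).mu_spec χ.2, indJ_inner N J hNJ Ψ (isIrr_isClassFunction χ.2)]
    have h10 : IsClassFunction N (resTo hNJ (χ : J → ℂ)) := by
      have h11 : IsCharacter N (resTo hNJ (χ : J → ℂ)) :=
        Cfsg.Agent.OddOrderCharacters.PF9.CliffGen.isCharacter_resTo hNJ (isIrr_isCharacter χ.2)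
      exact isCharacter_isClassFunction h11
    rw [hΨdef, Cfsg.Agent.OddOrderCharacters.Clifford.classInner_indFun U _ _ h10,
      ← Cfsg.Agent.H610.EB.classInner_equiv εV.toEquiv]
    have h12 : ∀ x : U, F (εV.symm (εV x)) = F x := fun x => by rw [MulEquiv.symm_apply_apply]
    have h13 : (fun a : U => (fun x : Uh => F (εV.symm x)) (εV.toEquiv a)) = F := funext h12
    rw [h13]
    rfl
  have hext : ∀ g, CycExt J k (χ : J → ℂ) g := fun g =>
    cycExt_of_gc hk J hidx P Uh hUhJ hUP hVn gΦ hΦi χ.2 hχinv hin hχ3 g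
  obtain ⟨ψ, h1, h2, h3, h4⟩ := of_cyc_inv' hM J hidx hk χ hχ1 hχk hχinv hext hχ2
  refine H611.EB.ConclF.descend N J hNJ (F := fun θ => θ = χ) ⟨ψ, h1, h2, h3, χ, rfl, hχk, h4⟩ ?_
  rintro χ' φ' rfl h5 h6 h7
  have h8 := ((hfacts χ' φ' h5 h6).1 ⟨hχ1, hχ2, hχ3⟩).2.1
  rw [charDegree_def, h7] at h8
  simp at h8

end chain

/-- **Criterion (F).** -/
theorem evenJ_of_gc {S : Type u} [Group S] [Fintype S] (hdz : DZ S) (U : Subgroup S) [Fintype U]
    (hU : IsPGroup 2 U) (hUi : Odd U.index) {F : U → ℂ} (hF : GC F) {b : ℤ} (hb : F 1 = b) (hbe : Even b)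
    (hFα : ∀ α : S ≃* S, U.map α.toMonoidHom = U → ∀ (u : S) (hu : u ∈ U) (hu' : α u ∈ U), F ⟨α u, hu'⟩ = F ⟨u, hu⟩)
    {a : ℤ} (ha : classInner (indFun U F) (indFun U F) = a) (hao : Odd a) : EvenJ S := by
  classical
  rintro G _ _ N _ _ ⟨e⟩ - J _ hNJ ho hi k hk M hM
  haveI : Fintype J := Fintype.ofFinite _
  -- transport
  have hdzN : DZ N := by
    intro iN M' hM' χ hχ
    have hirr : IsIrrCharacter S (fun s => (χ : N → ℂ) (e s)) :=
      isIrr_comp e.toMonoidHom e.surjective χ.2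
    have h1 := hdz M' hM' ⟨fun s => (χ : N → ℂ) (e s), hirr⟩ (fun h => hχ
      ((H611.EB.mem_comp_equiv e χ.2 hirr).1 h))
    refine ⟨fun g hg => ?_, ?_⟩
    · have h2 := h1.1 (e.symm g) (by rwa [MulEquiv.orderOf_eq])
      have h3 : (χ : N → ℂ) (e (e.symm g)) = 0 := h2
      rwa [MulEquiv.apply_symm_apply] at h3
    · rw [← Nat.card_congr e.toEquiv, h1.2]
      have h3 : charDegree (fun s => (χ : N → ℂ) (e s)) = charDegree (χ : N → ℂ) := by
        rw [charDegree_def, charDegree_def, map_one]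
      show (charDegree (fun s => (χ : N → ℂ) (e s))).factorization 2 = _
      rw [h3]
  set V : Subgroup N := U.map e.toMonoidHom with hV
  haveI : Fintype V := Fintype.ofFinite _
  let ε : U ≃* V := U.equivMapOfInjective e.toMonoidHom e.injective
  have hεs : ∀ (s : S) (hs : s ∈ U) (h' : e s ∈ V), ε.symm ⟨e s, h'⟩ = ⟨s, hs⟩ := by
    intro s hs h'
    apply ε.injective
    rw [MulEquiv.apply_symm_apply]
    rfl
  have hUV : ∀ s, s ∈ U ↔ e s ∈ V := by
    intro s
    constructor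
    · exact fun hs => ⟨s, hs, rfl⟩
    · rintro ⟨t, ht, hts⟩
      have : t = s := e.injective hts
      rwa [← this]
  have hind : ∀ s : S, indFun V (fun x : V => F (ε.symm x)) (e s) = indFun U F s := fun s =>
    indFun_transport e U V hUV F _ (fun t ht ht' => by
      show F (ε.symm ⟨e t, ht'⟩) = F ⟨t, ht⟩
      rw [hεs t ht ht']) s
  refine concl_of_gc N J hNJ hM ho hi hk hdzN V (hU.map _) ?_ (F := fun x : V => F (ε.symm x))
    (hF.comp ε.symm.toMonoidHom) (b := b) ?_ hbe ?_ (a := a) ?_ hao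
  · have h1 : V.index = U.index := Subgroup.index_map_equiv U e
    rw [h1]
    exact hUi
  · show F (ε.symm 1) = b
    rw [map_one, hb]
  · intro α hα u hu hu'
    have h1 : U.map ((e.trans α).trans e.symm).toMonoidHom = U := by
      apply Subgroup.map_injective (f := e.toMonoidHom) e.injective
      rw [Subgroup.map_map]
      rw [hV, Subgroup.map_map] at hα
      conv_rhs => rw [← hα]
      congr 1
      ext x
      simp
    obtain ⟨s, hs, rfl⟩ := hu
    have hαs : ((e.trans α).trans e.symm) s ∈ U := by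
      rw [hUV]
      show e (e.symm (α (e s))) ∈ V
      rw [MulEquiv.apply_symm_apply]
      exact hu'
    have h2 := hFα _ h1 s hs hαs
    have h3 : ε.symm ⟨α (e s), hu'⟩ = ⟨((e.trans α).trans e.symm) s, hαs⟩ := by
      rw [← hεs _ hαs ((hUV _).1 hαs)]
      congr 1
      apply Subtype.ext
      show α (e s) = e (e.symm (α (e s)))
      rw [MulEquiv.apply_symm_apply]
    show F (ε.symm ⟨α (e s), hu'⟩) = F (ε.symm ⟨e s, _⟩)
    rw [h3, h2]
    exact (congrArg F (hεs s hs _)).symm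
  · rw [← ha, ← Cfsg.Agent.H610.EB.classInner_equiv e.toEquiv]
    have h1 : (fun s : S => indFun V (fun x : V => F (ε.symm x)) (e.toEquiv s)) = indFun U F := funext hind
    rw [h1]

end Cfsg.Agent.H352.EB
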