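import Cfsg.Agent.H352.EB.Inert
import Cfsg.Agent.H352.EB.TwoF
import Cfsg.Agent.H497.EB.TI
import Cfsg.Agent.H497.EB.Low
import Cfsg.Agent.CharactersDeep.MackeyLinear

/-!
# Principal series characters `Ind_B^S μ`, `μ` linear of 2-power order (helper352)
-/

set_option autoImplicit false
set_option linter.unusedSectionVars false
set_option linter.style.haveILetI false

namespace Cfsg.Agent.H352.EB

open Cfsg Cfsg.Agent.H610.EB Cfsg.Agent.H611.EB Cfsg.Agent.H694 Cfsg.Agent.H610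
open scoped ComplexConjugate
open Cfsg.Agent.Characters Cfsg.Agent.Characters.Core
open Cfsg.Agent.OddOrderCharacters.Clifford
open Cfsg.Agent.OddOrderCharacters.NormalInduced (conjFn)
open Cfsg.Agent.CharactersDeep.MackeyLinear

universe u

variable {S : Type u} [Group S]

/-- the twist of two linear characters vanishes if they differ -/
theorem twist_eq_zero' [Finite S] (T : Subgroup S) [Fintype T] (f f' : T →* ℂˣ) (x : S)
    (h : ∃ (t : T) (hx : x⁻¹ * t * x ∈ T), f t ≠ f' ⟨x⁻¹ * t * x, hx⟩) :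
    twist T (fun t => (f t : ℂ)) (fun t => (f' t : ℂ)) x = 0 := by
  classical
  obtain ⟨t₀, ht₀, hne⟩ := h
  rw [twist_def]
  set F : T → ℂ := fun t => (f t : ℂ) * conj (extendByZero T (fun t => (f' t : ℂ)) (x⁻¹ * t * x))
    with hF
  set c : ℂ := (f t₀ : ℂ) * conj (f' ⟨x⁻¹ * t₀ * x, ht₀⟩ : ℂ) with hc
  have hmul : ∀ t : T, F (t₀ * t) = c * F t := by
    intro t
    simp only [hF, hc]
    by_cases ht : x⁻¹ * (t : S) * x ∈ T
    · have hprod : x⁻¹ * ((t₀ * t : T) : S) * x ∈ T := by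
        have : x⁻¹ * ((t₀ * t : T) : S) * x = (x⁻¹ * (t₀ : S) * x) * (x⁻¹ * (t : S) * x) := by
          simp [mul_assoc]
        rw [this]
        exact T.mul_mem ht₀ ht
      rw [ext_apply_mem T _ _ hprod, ext_apply_mem T _ _ ht]
      have hf : f' ⟨x⁻¹ * ((t₀ * t : T) : S) * x, hprod⟩ =
          f' ⟨x⁻¹ * (t₀ : S) * x, ht₀⟩ * f' ⟨x⁻¹ * (t : S) * x, ht⟩ := by
        rw [← map_mul]
        congr 1
        apply Subtype.ext
        simp [mul_assoc]
      rw [hf, map_mul, Units.val_mul, Units.val_mul, map_mul]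
      ring
    · have hprod : x⁻¹ * ((t₀ * t : T) : S) * x ∉ T := by
        intro h
        apply ht
        have : x⁻¹ * (t : S) * x = (x⁻¹ * (t₀ : S) * x)⁻¹ * (x⁻¹ * ((t₀ * t : T) : S) * x) := by
          simp [mul_assoc]
        rw [this]
        exact T.mul_mem (T.inv_mem ht₀) h
      rw [ext_apply_not_mem T _ _ hprod, ext_apply_not_mem T _ _ ht, map_zero, mul_zero, mul_zero,
        mul_zero]
  have hsum : ∑ t : T, F t = c * ∑ t : T, F t := by
    calc ∑ t : T, F t = ∑ t : T, F (t₀ * t) :=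
          (Fintype.sum_equiv (Equiv.mulLeft t₀) _ _ (fun t => rfl)).symm
      _ = ∑ t : T, c * F t := Finset.sum_congr rfl fun t _ => hmul t
      _ = c * ∑ t : T, F t := by rw [Finset.mul_sum]
  have hc1 : c ≠ 1 := by
    intro h
    apply hne
    apply Units.ext
    have h2 := mul_conj_hom f' ⟨x⁻¹ * t₀ * x, ht₀⟩
    have h3 : (conj (f' ⟨x⁻¹ * t₀ * x, ht₀⟩ : ℂ)) ≠ 0 := by
      intro h0
      rw [h0, mul_zero] at h2
      exact zero_ne_one h2
    apply mul_right_cancel₀ h3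
    rw [h2]
    exact h
  have h4 : (1 - c) * ∑ t : T, F t = 0 := by
    rw [sub_mul, one_mul, ← hsum, sub_self]
  rcases mul_eq_zero.mp h4 with h5 | h5
  · exact absurd (sub_eq_zero.mp h5).symm hc1
  · exact h5

variable [Fintype S] (B : Subgroup S)

/-- the induced character -/
noncomputable def ps (μ : B →* ℂˣ) : S → ℂ := indFun B (fun b => (μ b : ℂ))

variable {B}

/-- Mackey's condition -/
def Mc (μ μ' : B →* ℂˣ) (x : S) : Prop := ∃ (t : B) (hx : x⁻¹ * t * x ∈ B), μ t ≠ μ' ⟨x⁻¹ * t * x, hx⟩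

theorem ps_irr {μ : B →* ℂˣ} (h : ∀ x, x ∉ B → Mc μ μ x) : IsIrrCharacter S (ps B μ) :=
  isIrrCharacter_indFun B μ h

theorem ps_cf (μ : B →* ℂˣ) : IsClassFunction S (ps B μ) := by
  classical
  haveI : Fintype B := Fintype.ofFinite _
  exact isClassFunction_indFun B _

theorem ps_one (μ : B →* ℂˣ) : ps B μ 1 = B.index := by
  rw [ps, Cfsg.Agent.OddOrderCharacters.IndRes.indFun_apply_one, map_one, Units.val_one, mul_one]

theorem ps_degree (μ : B →* ℂˣ) : charDegree (ps B μ) = B.index :=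
  Cfsg.Agent.Blocks.Basic.charDegree_of_eq (ps_one μ)

/-- two such characters are different -/
theorem ps_ne {μ μ' : B →* ℂˣ} (h : ∀ x, Mc μ μ' x) (hirr : IsIrrCharacter S (ps B μ)) : ps B μ ≠ ps B μ' := by
  classical
  haveI : Fintype B := Fintype.ofFinite _
  intro heq
  have h1 : classInner (ps B μ) (ps B μ') = 0 := by
    rw [ps, ps, classInner_indFun_indFun, Finset.sum_eq_zero, mul_zero, mul_zero]
    intro x _
    exact twist_eq_zero' B μ μ' x (h x)
  rw [← heq, classInner_irr_self hirr] at h1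
  exact one_ne_zero h1

/-- `μ` has 2-power order -/
def TwoP (μ : B →* ℂˣ) : Prop := ∀ b, ∃ j : ℕ, μ b ^ 2 ^ j = 1

theorem ps_pow {μ : B →* ℂˣ} (h2 : TwoP μ) {k : ℕ} (hk : IsK S k) (s : S) : ps B μ (s ^ k) = ps B μ s := by
  classical
  haveI : Fintype B := Fintype.ofFinite _
  refine indFun_pow B hk (fun t => ?_) s
  rw [H497.EB.hom_pow_eq (hk.sub B) μ t (h2 t)]

/-- the values at elements of odd order -/
theorem ps_reg {μ : B →* ℂˣ} (h2 : TwoP μ) {s : S} (hs : Odd (orderOf s)) :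
    ps B μ s = indFun B (fun _ => (1 : ℂ)) s := by
  classical
  rw [ps, indFun_def, indFun_def]
  show (Nat.card B : ℂ)⁻¹ * _ = (Nat.card B : ℂ)⁻¹ * _
  congr 1
  refine Finset.sum_congr rfl fun x _ => ?_
  by_cases hx : x⁻¹ * s * x ∈ B
  · rw [ext_apply_mem B _ _ hx, ext_apply_mem B _ _ hx]
    obtain ⟨j, hj⟩ := h2 ⟨x⁻¹ * s * x, hx⟩
    have h3 : orderOf (⟨x⁻¹ * s * x, hx⟩ : B) = orderOf s := by
      rw [Subgroup.orderOf_mk]
      have h4 : x⁻¹ * s * x = MulAut.conj x⁻¹ s := by rw [MulAut.conj_apply, inv_inv]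
      rw [h4, MulEquiv.orderOf_eq]
    have h4 : μ ⟨x⁻¹ * s * x, hx⟩ ^ orderOf s = 1 := by
      rw [← h3, ← map_pow, pow_orderOf_eq_one, map_one]
    have h5 : Nat.Coprime (2 ^ j) (orderOf s) := Nat.Coprime.pow_left j (Nat.coprime_two_left.2 hs)
    have h6 : μ ⟨x⁻¹ * s * x, hx⟩ = 1 :=
      orderOf_eq_one_iff.1 (Nat.eq_one_of_dvd_coprimes h5 (orderOf_dvd_of_pow_eq_one hj)
        (orderOf_dvd_of_pow_eq_one h4))
    rw [h6, Units.val_one]
  · rw [ext_apply_not_mem B _ _ hx, ext_apply_not_mem B _ _ hx]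

theorem ps_mem {μ : B →* ℂˣ} (h2 : TwoP μ) (hirr : IsIrrCharacter S (ps B μ)) {M : Ideal AlgInt}
    (hM : IsPModular 2 M) : (⟨ps B μ, hirr⟩ : IrrCharacter S) ∈ principalBlock M S := by
  classical
  haveI : Fintype B := Fintype.ofFinite _
  have hprime : M.IsPrime := Cfsg.Agent.Blocks.Local.isPrime_of_isPModular hM
  let one : IrrCharacter S := ⟨fun _ => 1, Cfsg.Agent.Blocks.Basic.isIrrCharacter_one⟩
  have hc : IsCharacter S (indFun B (fun _ => (1 : ℂ))) :=
    Cfsg.Agent.S0148.result B _ (isIrr_isCharacter Cfsg.Agent.Blocks.Basic.isIrrCharacter_one)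
  have h0 : classInner (indFun B (fun _ => (1 : ℂ))) (one : S → ℂ) ≠ 0 := by
    rw [classInner_indFun B _ _ (isIrr_isClassFunction one.2)]
    have h1 : classInner (fun _ : B => (1 : ℂ)) (fun h : B => (one : S → ℂ) h) = 1 := by
      have h2 : IsIrrCharacter B (fun _ : B => (1 : ℂ)) := Cfsg.Agent.Blocks.Basic.isIrrCharacter_one
      exact classInner_irr_self h2
    rw [h1]
    exact one_ne_zero
  have h1 := Cfsg.Agent.OddOrderCharacters.Clifford.isCharacter_sub_irr hc one.2 h0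
  have h3 : SameBlock M (ps B μ) (one : S → ℂ) :=
    H497.EB.sameBlock_of_reg hM ⟨ps B μ, hirr⟩ one h1 fun s hs => by
      have hs' : Odd (orderOf s) := by
        rw [← Nat.not_even_iff_odd, even_iff_two_dvd]
        exact hs
      show ps B μ s = (one : S → ℂ) s + (indFun B (fun _ => (1 : ℂ)) - (one : S → ℂ)) s
      rw [ps_reg h2 hs', Pi.sub_apply]
      ring
  exact Cfsg.Agent.Blocks.Basic.sameBlock_symm h3

end Cfsg.Agent.H352.EB
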