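import Cfsg.Agent.H352.EB.OutOdd
import Cfsg.Agent.H694.EB.OutOdd
import Cfsg.Agent.BenderType.Inv
import Cfsg.Agent.S2126
import Cfsg.Agent.H548.Crit

/-!
# Team EB: the row `Sz(q)` (helper352)
-/

set_option autoImplicit false
set_option linter.unusedSectionVars false
set_option linter.style.haveILetI false

namespace Cfsg.Agent.H352.EB

open Cfsg Cfsg.Agent.Characters Cfsg.Agent.H694 Cfsg.Agent.H684.EB Cfsg.Agent.H610.EB
open Cfsg.Agent.H610 Cfsg.Agent.H611.EB Cfsg.Agent.H694.EB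

universe u

/-- **`Sz(q)`.** -/
theorem evenJ_sz {S : Type u} [Group S] [Finite S] [IsSimpleGroup S] (h : Lie.IsoSuzuki S) : EvenJ S := by
  classical
  haveI : Fact (Nat.Prime 2) := ⟨Nat.prime_two⟩
  have hdz : DZ S := dz_sz h
  have hTI : Cfsg.Agent.H210.Loc.TI 2 S := Cfsg.Agent.H210.Loc.ti_suzuki h
  obtain ⟨F, _, _, m, hm, hF, ⟨e⟩⟩ := h
  have hout : Odd (Nat.card (Out S)) := by
    rw [Cfsg.Agent.H548.Crit.card_out_congr e, Cfsg.Agent.S2126.result hm hF]
    exact odd_two_mul_add_one m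
  haveI : Finite ↥(Lie.Sz F (2 ^ (m + 1))) := Finite.of_equiv S e.toEquiv
  obtain ⟨Q⟩ : Nonempty (Sylow 2 ↥(Lie.Sz F (2 ^ (m + 1)))) := inferInstance
  set P : Sylow 2 S := Q.mapSurjective (f := e.symm.toMonoidHom) e.symm.surjective with hP
  have f2 : (Q : Subgroup ↥(Lie.Sz F (2 ^ (m + 1)))) ≃* (P : Subgroup S) :=
    (Subgroup.equivMapOfInjective _ e.symm.toMonoidHom e.symm.injective)
  have hty := (Cfsg.Agent.BenderType.Inv.ty_sz hm hF Q).congr f2
  have hZ : Subgroup.center S = ⊥ := by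
    rcases IsSimpleGroup.eq_bot_or_eq_top_of_normal (Subgroup.center S) inferInstance with h | h
    · exact h
    · exfalso
      obtain ⟨x, y, hxy⟩ := hty.ncomm
      apply hxy
      apply Subtype.ext
      have h1 : (x : S) ∈ Subgroup.center S := by rw [h]; exact Subgroup.mem_top _
      exact ((Subgroup.mem_center_iff.1 h1) (y : S)).symm
  exact evenJ_of_out_odd hZ hdz hTI hout P hty.ncomm

end Cfsg.Agent.H352.EB
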