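import Cfsg.Agent.H352.EB.TwoF
import Cfsg.Agent.H210.Loc.TI
import Cfsg.Agent.SectRankFour.AutSz8

/-!
# Criterion (F) for groups with independent Sylow 2-subgroups (helper352)
-/

set_option autoImplicit false
set_option linter.unusedSectionVars false
set_option linter.style.haveILetI false

namespace Cfsg.Agent.H352.EB

open Cfsg Cfsg.Agent.Characters Cfsg.Agent.H694 Cfsg.Agent.H684.EB Cfsg.Agent.H610.EB
open Cfsg.Agent.H610 Cfsg.Agent.H611.EB Cfsg.Agent.H694.EB
open scoped ComplexConjugate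
open Cfsg.Agent.Characters.Core
open Cfsg.Agent.OddOrderCharacters.PF9.CliffGen (resTo irr_ind)
open Cfsg.Agent.OddOrderCharacters.InducedNormal (extendByZero_mem extendByZero_not_mem)

universe u

section norm

variable {S : Type u} [Group S] [Fintype S]

theorem card_dvd_ti (U : Subgroup S) (hU : IsPGroup 2 U) (hUi : Odd U.index)
    (hTI : ∀ x : S, x ∉ Subgroup.normalizer (U : Set S) → ∀ u ∈ U, x⁻¹ * u * x ∈ U → u = 1) :
    Nat.card U ∣ (Subgroup.normalizer (U : Set S)).index - 1 := by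
  classical
  haveI : Fact (Nat.Prime 2) := ⟨Nat.prime_two⟩
  set H : Subgroup S := Subgroup.normalizer (U : Set S) with hH
  have hUH : U ≤ H := Subgroup.le_normalizer
  -- 2-elements of `H` lie in `U`
  have h2 : ∀ x ∈ H, (∃ n, orderOf x = 2 ^ n) → x ∈ U := by
    rintro x hx ⟨n, hn⟩
    haveI : (U.subgroupOf H).Normal := by
      constructor
      intro y hy z
      rw [Subgroup.mem_subgroupOf] at hy ⊢
      exact (Subgroup.mem_normalizer_iff.1 z.2 _).1 hy
    have h3 : Odd (U.subgroupOf H).index := by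
      have h4 : U.relIndex H * H.index = U.index := Subgroup.relIndex_mul_index hUH
      rw [← h4] at hUi
      exact Nat.Odd.of_mul_right (by rwa [mul_comm] at hUi)
    have h5 : orderOf (QuotientGroup.mk (⟨x, hx⟩ : H) : H ⧸ U.subgroupOf H) ∣ 2 ^ n := by
      rw [← hn]
      have h6 := orderOf_map_dvd (QuotientGroup.mk' (U.subgroupOf H)) (⟨x, hx⟩ : H)
      rwa [Subgroup.orderOf_mk] at h6
    have h7 : orderOf (QuotientGroup.mk (⟨x, hx⟩ : H) : H ⧸ U.subgroupOf H) ∣ (U.subgroupOf H).index := by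
      rw [Subgroup.index]
      exact orderOf_dvd_natCard _
    have h8 : orderOf (QuotientGroup.mk (⟨x, hx⟩ : H) : H ⧸ U.subgroupOf H) = 1 := by
      have h9 : Nat.Coprime (2 ^ n) (U.subgroupOf H).index := by
        apply Nat.Coprime.pow_left
        exact (Nat.coprime_two_left).2 h3
      exact Nat.eq_one_of_dvd_coprimes h9 h5 h7
    rw [orderOf_eq_one_iff, QuotientGroup.eq_one_iff, Subgroup.mem_subgroupOf] at h8
    exact h8
  let X := {x : S ⧸ H // x ≠ ((1 : S) : S ⧸ H)}
  have hst : ∀ p : U, ∀ x : S ⧸ H, x ≠ ((1 : S) : S ⧸ H) → (p : S) • x ≠ ((1 : S) : S ⧸ H) := by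
    intro p x hx h
    apply hx
    have h1 : x = (p : S)⁻¹ • ((1 : S) : S ⧸ H) := by
      rw [← h, inv_smul_smul]
    rw [h1]
    show (((p : S)⁻¹ * 1 : S) : S ⧸ H) = _
    rw [mul_one, QuotientGroup.eq, inv_inv, mul_one]
    exact hUH p.2
  letI : MulAction U X :=
    { smul := fun p x => ⟨(p : S) • x.1, hst p x.1 x.2⟩
      one_smul := fun x => Subtype.ext (one_smul S x.1)
      mul_smul := fun p q x => Subtype.ext (mul_smul (p : S) (q : S) x.1) }
  haveI : Finite X := Subtype.finite
  have h1 : Nat.card U ∣ Nat.card X := by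
    refine Cfsg.Agent.SectRankFour.AutSz8.card_dvd_of_free fun x p hpx => ?_
    obtain ⟨s, hs⟩ : ∃ s : S, ((s : S) : S ⧸ H) = x.1 := ⟨Quotient.out x.1, QuotientGroup.out_eq' _⟩
    have h3 : (p : S) • x.1 = x.1 := congrArg Subtype.val hpx
    rw [← hs] at h3
    have h4 : (((p : S) * s : S) : S ⧸ H) = (s : S ⧸ H) := h3
    rw [eq_comm, QuotientGroup.eq] at h4
    have hsH : s ∉ H := by
      intro h5
      apply x.2
      rw [← hs, QuotientGroup.eq, mul_one]
      exact H.inv_mem h5
    have h5 : s⁻¹ * (p : S) * s ∈ U := by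
      apply h2
      · rwa [← mul_assoc] at h4
      · obtain ⟨n, hn⟩ := hU p
        obtain ⟨i, -, hi⟩ := (Nat.dvd_prime_pow Nat.prime_two).1 (orderOf_dvd_of_pow_eq_one hn)
        refine ⟨i, ?_⟩
        have h6 : s⁻¹ * (p : S) * s = MulAut.conj s⁻¹ (p : S) := by
          rw [MulAut.conj_apply, inv_inv]
        rw [h6, MulEquiv.orderOf_eq, Subgroup.orderOf_coe, hi]
    exact Subtype.ext (hTI s hsH p p.2 h5)
  have h3 : Nat.card X = ({((1 : S) : S ⧸ H)}ᶜ : Set (S ⧸ H)).ncard := rfl
  rw [h3, Set.ncard_compl, Set.ncard_singleton] at h1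
  exact h1

open Classical in
theorem res_indFun (U : Subgroup S) [Fintype U]
    (hTI : ∀ x : S, x ∉ Subgroup.normalizer (U : Set S) → ∀ u ∈ U, x⁻¹ * u * x ∈ U → u = 1)
    {F : U → ℂ} (hFN : ∀ x ∈ Subgroup.normalizer (U : Set S), ∀ (u : S) (hu : u ∈ U) (hu' : x * u * x⁻¹ ∈ U),
      F ⟨x * u * x⁻¹, hu'⟩ = F ⟨u, hu⟩) (u : U) :
    indFun U F u = (Nat.card U : ℂ)⁻¹ * (Nat.card (Subgroup.normalizer (U : Set S)) * F u +
      if u = 1 then ((Nat.card S : ℂ) - Nat.card (Subgroup.normalizer (U : Set S))) * F 1 else 0) := by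
  classical
  set H : Subgroup S := Subgroup.normalizer (U : Set S) with hH
  rw [indFun_def]
  show (Nat.card U : ℂ)⁻¹ * ∑ x : S, extendByZero U F (x⁻¹ * (u : S) * x) = _
  congr 1
  have h1 : ∀ x : S, extendByZero U F (x⁻¹ * (u : S) * x) =
      (if x ∈ H then F u else 0) + (if x ∉ H then (if u = 1 then F 1 else 0) else 0) := by
    intro x
    by_cases hx : x ∈ H
    · rw [if_pos hx, if_neg (not_not.2 hx), add_zero]
      have h2 : x⁻¹ * (u : S) * x ∈ U := by
        have h3 := (Subgroup.mem_normalizer_iff.1 (H.inv_mem hx) u).1 u.2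
        rwa [inv_inv] at h3
      rw [extendByZero_mem U F h2]
      have h3 : x⁻¹ * (u : S) * x⁻¹⁻¹ ∈ U := by rwa [inv_inv]
      have h4 := hFN x⁻¹ (H.inv_mem hx) u u.2 h3
      refine Eq.trans ?_ h4
      congr 1
      apply Subtype.ext
      show x⁻¹ * (u : S) * x = x⁻¹ * (u : S) * x⁻¹⁻¹
      rw [inv_inv]
    · rw [if_neg hx, if_pos hx, zero_add]
      by_cases hu : u = 1
      · rw [if_pos hu, hu]
        have h2 : x⁻¹ * ((1 : U) : S) * x ∈ U := by
          rw [Subgroup.coe_one, mul_one, inv_mul_cancel]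
          exact U.one_mem
        rw [extendByZero_mem U F h2]
        congr 1
        apply Subtype.ext
        show x⁻¹ * ((1 : U) : S) * x = ((1 : U) : S)
        rw [Subgroup.coe_one, mul_one, inv_mul_cancel]
      · rw [if_neg hu]
        exact extendByZero_not_mem U F fun h => hu (Subtype.ext (hTI x hx u u.2 h))
  rw [Finset.sum_congr rfl fun x _ => h1 x, Finset.sum_add_distrib]
  have hcard : (Finset.univ.filter fun x : S => x ∈ H).card = Nat.card H := by
    rw [← Fintype.card_subtype, ← Nat.card_eq_fintype_card]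
  have hcard' : (Finset.univ.filter fun x : S => x ∉ H).card = Nat.card S - Nat.card H := by
    rw [Nat.card_eq_fintype_card (α := S), ← hcard, ← Finset.card_univ, Finset.filter_not, Finset.card_sdiff_of_subset (Finset.filter_subset _ _)]
  have hle : Nat.card H ≤ Nat.card S := Subgroup.card_le_card_group H
  congr 1
  · rw [← Finset.sum_filter, Finset.sum_const, hcard, nsmul_eq_mul]
  · rw [← Finset.sum_filter, Finset.sum_const, hcard', nsmul_eq_mul, Nat.cast_sub hle]
    split_ifs
    · rfl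
    · rw [mul_zero]

theorem ti_norm (U : Subgroup S) [Fintype U] (hU : IsPGroup 2 U) (hUi : Odd U.index)
    (hTI : ∀ x : S, x ∉ Subgroup.normalizer (U : Set S) → ∀ u ∈ U, x⁻¹ * u * x ∈ U → u = 1)
    {F : U → ℂ} (hF : GC F)
    (hFN : ∀ x ∈ Subgroup.normalizer (U : Set S), ∀ (u : S) (hu : u ∈ U) (hu' : x * u * x⁻¹ ∈ U),
      F ⟨x * u * x⁻¹, hu'⟩ = F ⟨u, hu⟩)
    {b c : ℤ} (hb : F 1 = b) (hc : classInner F F = c) (hbe : Even b) (hco : Odd c) :
    ∃ a : ℤ, classInner (indFun U F) (indFun U F) = a ∧ Odd a := by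
  classical
  set H : Subgroup S := Subgroup.normalizer (U : Set S) with hH
  have hUH : U ≤ H := Subgroup.le_normalizer
  obtain ⟨j, hj⟩ := card_dvd_ti U hU hUi hTI
  have hidx : H.index ≠ 0 := Subgroup.index_ne_zero_of_finite
  have hj' : H.index = 1 + Nat.card U * j := by
    have h1 : (Subgroup.normalizer (U : Set S)).index = H.index := rfl
    rw [h1] at hj
    omega
  have h4 : U.relIndex H * H.index = U.index := Subgroup.relIndex_mul_index hUH
  have hodd : Odd (U.relIndex H) := by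
    rw [← h4] at hUi
    exact Nat.Odd.of_mul_right (by rwa [mul_comm] at hUi)
  have hHU : Nat.card H = U.relIndex H * Nat.card U := by
    have h5 : Nat.card U * U.index = Nat.card H * H.index :=
      (Subgroup.card_mul_index U).trans (Subgroup.card_mul_index H).symm
    rw [← h4] at h5
    have h6 : U.relIndex H * Nat.card U * H.index = Nat.card H * H.index := by
      rw [← h5]
      ring
    exact (Nat.eq_of_mul_eq_mul_right (Nat.pos_of_ne_zero hidx) h6).symm
  have hSH : Nat.card S = Nat.card H * H.index := (Subgroup.card_mul_index H).symm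
  have hU0 : (Nat.card U : ℂ) ≠ 0 := card_ne_zero_complex
  refine ⟨(U.relIndex H : ℤ) * (c + j * (b * b)), ?_, ?_⟩
  · have hcf : IsClassFunction S (indFun U F) := (hF.indFun U).cf
    rw [Cfsg.Agent.OddOrderCharacters.Clifford.classInner_indFun U F _ hcf]
    have h5 : ∀ u : U, F u * conj (indFun U F (u : S)) =
        (U.relIndex H : ℂ) * (F u * conj (F u)) +
        (if u = 1 then (Nat.card U : ℂ) * ((U.relIndex H : ℂ) * (j * (b * b))) else 0) := by
      intro u
      rw [res_indFun U hTI hFN u]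
      by_cases hu : u = 1
      · rw [if_pos hu, if_pos hu, hu, hb]
        have h6 : (Nat.card S : ℂ) = (U.relIndex H : ℂ) * Nat.card U * (1 + Nat.card U * j) := by
          rw [hSH, hj', hHU]
          push_cast
          ring
        have h7 : (Nat.card H : ℂ) = (U.relIndex H : ℂ) * Nat.card U := by
          rw [hHU]
          push_cast
          ring
        rw [h6, h7]
        simp only [map_mul, map_add, map_sub, map_inv₀, map_natCast, map_intCast, map_one]
        field_simp
        ring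
      · rw [if_neg hu, if_neg hu, add_zero, add_zero]
        have h7 : (Nat.card H : ℂ) = (U.relIndex H : ℂ) * Nat.card U := by
          rw [hHU]
          push_cast
          ring
        rw [h7]
        simp only [map_mul, map_inv₀, map_natCast]
        field_simp
    rw [Core.classInner_def, Finset.sum_congr rfl fun u _ => h5 u, Finset.sum_add_distrib, ← Finset.mul_sum,
      Finset.sum_ite_eq' Finset.univ (1 : U) (fun _ => _), if_pos (Finset.mem_univ _)]
    rw [Core.classInner_def] at hc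
    have h8 : (Nat.card U : ℂ)⁻¹ * ((U.relIndex H : ℂ) * ∑ u : U, F u * conj (F u) +
        (Nat.card U : ℂ) * ((U.relIndex H : ℂ) * (j * (b * b)))) =
        (U.relIndex H : ℂ) * (((Nat.card U : ℂ)⁻¹ * ∑ u : U, F u * conj (F u)) + j * (b * b)) := by
      field_simp
    rw [h8, hc]
    push_cast
    ring
  · have h9 : Odd (U.relIndex H : ℤ) := by exact_mod_cast hodd
    refine h9.mul (hco.add_even ?_)
    exact (hbe.mul_left b).mul_left _

theorem ti_of_ti (P : Sylow 2 S) (h : Cfsg.Agent.H210.Loc.TI 2 S) (x : S)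
    (hx : x ∉ Subgroup.normalizer ((P : Subgroup S) : Set S)) (u : S) (hu : u ∈ (P : Subgroup S))
    (hu' : x⁻¹ * u * x ∈ (P : Subgroup S)) : u = 1 := by
  have hne : x • P ≠ P := fun h1 => hx (Sylow.smul_eq_iff_mem_normalizer.1 h1)
  have h2 := h _ _ hne
  have h3 : u ∈ ((x • P : Sylow 2 S) : Subgroup S) := by
    rw [Sylow.coe_subgroup_smul, Subgroup.mem_pointwise_smul_iff_inv_smul_mem, ← map_inv, MulAut.smul_def, MulAut.conj_apply, inv_inv]
    exact hu'
  have h4 : u ∈ ((x • P : Sylow 2 S) : Subgroup S) ⊓ (P : Subgroup S) := ⟨h3, hu⟩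
  rw [h2] at h4
  exact Subgroup.mem_bot.1 h4

/-- **Criterion (F) for independent Sylow 2-subgroups.** -/
theorem evenJ_of_ti (hdz : DZ S) (hTI : Cfsg.Agent.H210.Loc.TI 2 S) (P : Sylow 2 S) [Fintype ↥(P : Subgroup S)]
    {F : ↥(P : Subgroup S) → ℂ} (hF : GC F) {b c : ℤ} (hb : F 1 = b) (hbe : Even b)
    (hFα : ∀ α : S ≃* S, (P : Subgroup S).map α.toMonoidHom = P → ∀ (u : S) (hu : u ∈ (P : Subgroup S))
      (hu' : α u ∈ (P : Subgroup S)), F ⟨α u, hu'⟩ = F ⟨u, hu⟩)
    (hc : classInner F F = c) (hco : Odd c) : EvenJ S := by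
  haveI : Fact (Nat.Prime 2) := ⟨Nat.prime_two⟩
  have hUi : Odd (P : Subgroup S).index := by
    rw [← Nat.not_even_iff_odd, even_iff_two_dvd]
    exact P.not_dvd_index
  have hFN : ∀ x ∈ Subgroup.normalizer ((P : Subgroup S) : Set S), ∀ (u : S) (hu : u ∈ (P : Subgroup S))
      (hu' : x * u * x⁻¹ ∈ (P : Subgroup S)), F ⟨x * u * x⁻¹, hu'⟩ = F ⟨u, hu⟩ := by
    intro x hx u hu hu'
    have h1 := hFα (MulAut.conj x) (by
      have h2 := Sylow.smul_eq_iff_mem_normalizer.2 hx
      exact congrArg (fun Q : Sylow 2 S => (Q : Subgroup S)) h2) u hu hu'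
    exact h1
  obtain ⟨a, ha, hao⟩ := ti_norm (P : Subgroup S) P.2 hUi (ti_of_ti P hTI) hF hFN hb hc hbe hco
  exact evenJ_of_gc hdz (P : Subgroup S) P.2 hUi hF hb hbe hFα ha hao

end norm

end Cfsg.Agent.H352.EB
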