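import Cfsg.Agent.H352.EB.Ti
import Cfsg.Agent.H684.EB.EvenS

/-!
# Criterion (F) for sums of irreducible characters of a Sylow 2-subgroup (helper352)
-/

set_option autoImplicit false
set_option linter.unusedSectionVars false
set_option linter.style.haveILetI false

namespace Cfsg.Agent.H352.EB

open Cfsg Cfsg.Agent.Characters Cfsg.Agent.H694 Cfsg.Agent.H684.EB Cfsg.Agent.H610.EB
open Cfsg.Agent.H610 Cfsg.Agent.H611.EB Cfsg.Agent.H694.EB
open scoped ComplexConjugate
open Cfsg.Agent.Characters.Core
open Cfsg.Agent.Blocks.Basic (irr_one_eq_charDegree)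

universe u

section

variable {S : Type u} [Group S]

/-- restriction of an automorphism to an invariant subgroup -/
def restr (U : Subgroup S) (α : S ≃* S) (hα : ∀ s, s ∈ U ↔ α s ∈ U) : U ≃* U where
  toFun x := ⟨α x, (hα _).1 x.2⟩
  invFun x := ⟨α.symm x, (hα _).2 (by rw [α.apply_symm_apply]; exact x.2)⟩
  left_inv x := Subtype.ext (α.symm_apply_apply _)
  right_inv x := Subtype.ext (α.apply_symm_apply _)
  map_mul' x y := Subtype.ext (map_mul α _ _)

theorem mem_iff_of_map (U : Subgroup S) (α : S ≃* S) (h : U.map α.toMonoidHom = U) (s : S) :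
    s ∈ U ↔ α s ∈ U := by
  constructor
  · intro hs
    rw [← h]
    exact ⟨s, hs, rfl⟩
  · intro hs
    rw [← h] at hs
    obtain ⟨t, ht, hts⟩ := hs
    have h3 : t = s := α.injective hts
    rwa [← h3]

theorem pull_injective {G H : Type*} [Group G] [Group H] (e : G ≃* H) : Function.Injective (pull e) := by
  intro χ ψ h
  apply Subtype.ext
  funext x
  have h1 := congrArg (fun φ : IrrCharacter G => (φ : G → ℂ) (e.symm x)) h
  simp only [pull_apply, e.apply_symm_apply] at h1
  exact h1

/-- the sum of the characters of a finite set -/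
noncomputable def sumF {G : Type*} [Group G] (T : Finset (IrrCharacter G)) : G → ℂ := fun g => ∑ χ ∈ T, (χ : G → ℂ) g

theorem gc_zero {G : Type*} [Group G] [Fintype G] : GC (0 : G → ℂ) where
  cf := fun _ _ => rfl
  int := fun χ _ => ⟨0, by rw [classInner_zero_left]; simp⟩

theorem gc_sumF {G : Type*} [Group G] [Fintype G] (T : Finset (IrrCharacter G)) : GC (sumF T) := by
  classical
  induction T using Finset.induction_on with
  | empty =>
    have h : sumF (∅ : Finset (IrrCharacter G)) = 0 := by
      funext g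
      simp [sumF]
    rw [h]
    exact gc_zero
  | insert χ T hχ ih =>
    have h : sumF (insert χ T) = (χ : G → ℂ) + sumF T := by
      funext g
      simp [sumF, Finset.sum_insert hχ]
    rw [h]
    exact (GC.of_irr χ.2).add ih

theorem inner_sumF {G : Type*} [Group G] [Fintype G] (T : Finset (IrrCharacter G)) :
    classInner (sumF T) (sumF T) = T.card := by
  classical
  have h1 : sumF T = ∑ χ ∈ T, (χ : G → ℂ) := by
    funext g
    rw [sumF, Finset.sum_apply]
  rw [h1, classInner_sum_left, Finset.card_eq_sum_ones, Nat.cast_sum]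
  refine Finset.sum_congr rfl fun χ hχ => ?_
  rw [classInner_sum_right, Finset.sum_eq_single χ]
  · rw [classInner_irr χ.2 χ.2, if_pos rfl, Nat.cast_one]
  · intro ψ _ hne
    rw [classInner_irr χ.2 ψ.2, if_neg fun h => hne (Subtype.ext h.symm)]
  · exact fun h => absurd hχ h

theorem sumF_one {G : Type*} [Group G] [Fintype G] (T : Finset (IrrCharacter G)) :
    sumF T 1 = ((∑ χ ∈ T, charDegree (χ : G → ℂ) : ℕ) : ℂ) := by
  rw [sumF, Nat.cast_sum]
  exact Finset.sum_congr rfl fun χ _ => irr_one_eq_charDegree χ.2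

/-- **Criterion (F) for independent Sylow 2-subgroups and sums of irreducible characters.** -/
theorem evenJ_of_finset [Fintype S] (hdz : DZ S) (hTI : Cfsg.Agent.H210.Loc.TI 2 S) (P : Sylow 2 S)
    (T : Finset (IrrCharacter ↥(P : Subgroup S)))
    (hT : ∀ (α : S ≃* S) (hα : ∀ s, s ∈ (P : Subgroup S) ↔ α s ∈ (P : Subgroup S)), ∀ χ ∈ T,
      pull (restr (P : Subgroup S) α hα) χ ∈ T)
    (hodd : Odd T.card) (heven : Even (∑ χ ∈ T, charDegree (χ : ↥(P : Subgroup S) → ℂ))) : EvenJ S := by
  classical
  letI : Fintype ↥(P : Subgroup S) := Fintype.ofFinite _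
  refine evenJ_of_ti hdz hTI P (gc_sumF T) (b := ((∑ χ ∈ T, charDegree (χ : ↥(P : Subgroup S) → ℂ) : ℕ) : ℤ))
    (c := (T.card : ℤ)) ?_ ?_ ?_ ?_ ?_
  · rw [sumF_one]
    push_cast
    rfl
  · exact_mod_cast heven
  · intro α hα u hu hu'
    have hα' := mem_iff_of_map (P : Subgroup S) α hα
    have h1 : T.image (pull (restr (P : Subgroup S) α hα')) = T := by
      refine Finset.eq_of_subset_of_card_le ?_ ?_
      · intro χ hχ
        obtain ⟨ψ, hψ, rfl⟩ := Finset.mem_image.1 hχ
        exact hT α hα' ψ hψ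
      · rw [Finset.card_image_of_injective _ (pull_injective _)]
    have h2 : sumF T ⟨u, hu⟩ = sumF (T.image (pull (restr (P : Subgroup S) α hα'))) ⟨u, hu⟩ := by rw [h1]
    rw [h2, sumF, sumF, Finset.sum_image (pull_injective _).injOn]
    rfl
  · rw [inner_sumF]
    push_cast
    rfl
  · exact_mod_cast hodd

end

end Cfsg.Agent.H352.EB
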