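import Cfsg.Agent.H352.EB.PS
import Cfsg.Agent.H352.EB.TiSum
import Cfsg.Agent.H961.LineChar
import Cfsg.Agent.H273.VecSU3
import Cfsg.Agent.H740.Cyc.PSUAut
import Cfsg.Agent.S0278

/-!
# Principal series characters of `PSU_3(q)` (helper352)
-/

set_option autoImplicit false
set_option linter.unusedSectionVars false
set_option linter.style.haveILetI false

namespace Cfsg.Agent.H352.EB.U3

open Cfsg Matrix Cfsg.Agent.H961.LineChar
open Cfsg.Agent.LieClassical.HermBasic Cfsg.Agent.LieClassical.HermSiegel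
  Cfsg.Agent.LieClassical.HermGen Cfsg.Agent.LieClassical.HermSimple Cfsg.Agent.LieClassical.SUBasic
  Cfsg.Agent.ClassicalGeometry.UnitAutBasic Cfsg.Agent.LieClassical.FieldTransfer
  Cfsg.Agent.ClassicalGeometry.PSUAutCount
open Cfsg.Agent.ClassicalGeometry.PSUAutBasic (act_suScalar)

variable {F : Type*} [Field F] {q : ℕ}

/-- the natural representation -/
def rep (F : Type*) [Field F] (q : ℕ) : SU 3 F q →* Matrix (Fin 3) (Fin 3) F where
  toFun g := mat g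
  map_one' := rfl
  map_mul' _ _ := mat_mul _ _

theorem rep_mulVec (g : SU 3 F q) (v : Fin 3 → F) : rep F q g *ᵥ v = act g v := rfl

/-- the stabilizer of the line of `e` in `PSU_3(q)` -/
def Bo (q : ℕ) (e : Fin 3 → F) : Subgroup (PSU 3 F q) := (lineStab (rep F q) e).map (pr 3 F q)

theorem mem_lineStab' {e : Fin 3 → F} {g : SU 3 F q} : g ∈ lineStab (rep F q) e ↔ ∃ a : Fˣ, act g e = (a : F) • e :=
  Iff.rfl

theorem mem_Bo {e : Fin 3 → F} {s : PSU 3 F q} : s ∈ Bo q e ↔ ∃ (g : SU 3 F q) (a : Fˣ), act g e = (a : F) • e ∧ pr 3 F q g = s := by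
  constructor
  · rintro ⟨g, ⟨a, ha⟩, hg⟩
    exact ⟨g, a, ha, hg⟩
  · rintro ⟨g, a, ha, hg⟩
    exact ⟨g, ⟨a, ha⟩, hg⟩

/-- `θ` has 2-power order -/
def Tp (θ : Fˣ →* ℂˣ) : Prop := ∀ a, ∃ j : ℕ, θ a ^ 2 ^ j = 1

section

variable [Fintype F]

theorem center_cube (hF : Fintype.card F = q ^ 2) {z : SU 3 F q} (hz : z ∈ Subgroup.center (SU 3 F q)) :
    ∃ c : Fˣ, c ^ 3 = 1 ∧ ∀ v, act z v = (c : F) • v := by
  obtain ⟨c, hcn, hcq, rfl⟩ := (mem_center_SU_iff hF le_rfl z).1 hz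
  have hc0 : c ≠ 0 := by
    rintro rfl
    rw [zero_pow (by norm_num)] at hcn
    exact zero_ne_one hcn
  refine ⟨Units.mk0 c hc0, ?_, fun v => act_suScalar hcn hcq v⟩
  apply Units.ext
  rw [Units.val_pow_eq_pow_val, Units.val_mk0, hcn, Units.val_one]

theorem tp_cube {θ : Fˣ →* ℂˣ} (hθ : Tp θ) {c : Fˣ} (hc : c ^ 3 = 1) : θ c = 1 := by
  obtain ⟨j, hj⟩ := hθ c
  have h1 : θ c ^ 3 = 1 := by rw [← map_pow, hc, map_one]
  have h2 : Nat.Coprime (2 ^ j) 3 := Nat.Coprime.pow_left j (by norm_num)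
  exact orderOf_eq_one_iff.1 (Nat.eq_one_of_dvd_coprimes h2 (orderOf_dvd_of_pow_eq_one hj)
    (orderOf_dvd_of_pow_eq_one h1))

theorem center_le (hF : Fintype.card F = q ^ 2) (e : Fin 3 → F) :
    Subgroup.center (SU 3 F q) ≤ lineStab (rep F q) e := by
  intro z hz
  obtain ⟨c, -, hc⟩ := center_cube hF hz
  exact ⟨c, hc e⟩

/-- the linear character of the Borel subgroup -/
theorem exists_mu (hF : Fintype.card F = q ^ 2) {e : Fin 3 → F} (he : e ≠ 0) {θ : Fˣ →* ℂˣ} (hθ : Tp θ) :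
    ∃ μ : Bo q e →* ℂˣ, ∀ (g : SU 3 F q) (a : Fˣ) (_ : act g e = (a : F) • e) (hg : pr 3 F q g ∈ Bo q e),
      μ ⟨pr 3 F q g, hg⟩ = θ a := by
  let π : lineStab (rep F q) e →* Bo q e := (pr 3 F q).subgroupMap (lineStab (rep F q) e)
  have hπ : Function.Surjective π := (pr 3 F q).subgroupMap_surjective _
  let f : lineStab (rep F q) e →* ℂˣ := θ.comp (eig (rep F q) he)
  have hker : π.ker ≤ f.ker := by
    intro g hg
    rw [MonoidHom.mem_ker] at hg ⊢
    have h1 : pr 3 F q (g : SU 3 F q) = 1 := congrArg Subtype.val hg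
    obtain ⟨c, hc3, hc⟩ := center_cube hF ((QuotientGroup.eq_one_iff (g : SU 3 F q)).1 h1)
    have h2 : eig (rep F q) he g = c := eig_eq (rep F q) he (hc e)
    show θ (eig (rep F q) he g) = 1
    rw [h2]
    exact tp_cube hθ hc3
  refine ⟨MonoidHom.liftOfSurjective π hπ ⟨f, hker⟩, fun g a ha hg => ?_⟩
  have h1 : (⟨pr 3 F q g, hg⟩ : Bo q e) = π ⟨g, a, ha⟩ := rfl
  rw [h1]
  have h2 : (MonoidHom.liftOfSurjective π hπ ⟨f, hker⟩) (π ⟨g, a, ha⟩) = f ⟨g, a, ha⟩ :=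
    MonoidHom.liftOfRightInverse_comp_apply _ _ _ ⟨f, hker⟩ _
  rw [h2]
  show θ (eig (rep F q) he ⟨g, a, ha⟩) = θ a
  rw [eig_eq (rep F q) he (g := ⟨g, a, ha⟩) (a := a) ha]

/-- the linear character of the Borel subgroup -/
noncomputable def mu (hF : Fintype.card F = q ^ 2) {e : Fin 3 → F} (he : e ≠ 0) {θ : Fˣ →* ℂˣ} (hθ : Tp θ) :
    Bo q e →* ℂˣ := (exists_mu hF he hθ).choose

theorem mu_spec (hF : Fintype.card F = q ^ 2) {e : Fin 3 → F} (he : e ≠ 0) {θ : Fˣ →* ℂˣ} (hθ : Tp θ)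
    {g : SU 3 F q} {a : Fˣ} (ha : act g e = (a : F) • e) (hg : pr 3 F q g ∈ Bo q e) :
    mu hF he hθ ⟨pr 3 F q g, hg⟩ = θ a := (exists_mu hF he hθ).choose_spec g a ha hg

theorem twoP_mu (hF : Fintype.card F = q ^ 2) {e : Fin 3 → F} (he : e ≠ 0) {θ : Fˣ →* ℂˣ} (hθ : Tp θ) :
    TwoP (mu hF he hθ : Bo q e →* ℂˣ) := by
  rintro ⟨s, hs⟩
  obtain ⟨g, a, ha, rfl⟩ := mem_Bo.1 hs
  obtain ⟨j, hj⟩ := hθ a
  exact ⟨j, by rw [mu_spec hF he hθ ha]; exact hj⟩

/-- torus elements -/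
theorem exists_tor (hF : Fintype.card F = q ^ 2) {e u : Fin 3 → F} (he : hermForm 3 F q e e = 0)
    (hu : hermForm 3 F q u u = 0) (heu : hermForm 3 F q e u ≠ 0) (γ : Fˣ) :
    ∃ g : SU 3 F q, act g e = (γ : F) • e ∧ act g u = (((γ ^ q)⁻¹ : Fˣ) : F) • u := by
  set c : F := ((hermForm 3 F q e u)⁻¹) ^ q with hc
  have hc0 : c ≠ 0 := pow_ne_zero _ (inv_ne_zero heu)
  have hcq : c ^ q * hermForm 3 F q e u = 1 := by
    rw [hc, pow_q_pow_q hF, inv_mul_cancel₀ heu]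
  set δ : F := (((γ ^ q)⁻¹ : Fˣ) : F) with hδ
  have hγδ : (γ : F) * δ ^ q = 1 := by
    have h1 : δ ^ q = ((γ⁻¹ : Fˣ) : F) := by
      rw [hδ, ← inv_pow, Units.val_pow_eq_pow_val, pow_q_pow_q hF]
    rw [h1, Units.mul_inv]
  obtain ⟨g, -, h1, h2⟩ := exists_map_hyp hF le_rfl le_rfl (mem_coordSub_top e) (mem_coordSub_top (c • u))
    (mem_coordSub_top ((γ : F) • e)) (mem_coordSub_top (δ • (c • u))) he
    (by rw [herm_smul_left, herm_smul_right, hu]; ring)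
    (by rw [herm_smul_right]; exact hcq)
    (by rw [herm_smul_left, herm_smul_right, he]; ring)
    (by rw [herm_smul_left, herm_smul_right, herm_smul_left, herm_smul_right, hu]; ring)
    (by
      rw [herm_smul_left, herm_smul_right, herm_smul_right]
      linear_combination hγδ + (γ : F) * δ ^ q * hcq)
  refine ⟨g, h1, ?_⟩
  rw [act_smul, smul_comm δ c] at h2
  exact smul_right_injective _ hc0 h2

/-- Mackey's condition outside the Borel subgroup -/
theorem mc_out (hF : Fintype.card F = q ^ 2) {e : Fin 3 → F} (he : e ≠ 0) (hee : hermForm 3 F q e e = 0)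
    {θ θ' : Fˣ →* ℂˣ} (hθ : Tp θ) (hθ' : Tp θ') {γ : Fˣ} (hγ : θ γ ≠ θ' (γ ^ q)⁻¹) {x : PSU 3 F q}
    (hx : x ∉ Bo q e) : Mc (mu hF he hθ) (mu hF he hθ') x := by
  obtain ⟨y, rfl⟩ := pr_surjective x
  have huu : hermForm 3 F q (act y e) (act y e) = 0 := by rw [herm_act, hee]
  have heu : hermForm 3 F q e (act y e) ≠ 0 := by
    intro h0
    obtain ⟨c, hc⟩ := Cfsg.Agent.H273.VecSU3.parallel hF hee huu h0 he
    apply hx
    have hc0 : c ≠ 0 := by
      rintro rfl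
      rw [zero_smul] at hc
      apply he
      rw [← act_inv_act y e, hc, act_zero]
    exact mem_Bo.2 ⟨y, Units.mk0 c hc0, hc, rfl⟩
  obtain ⟨g, h1, h2⟩ := exists_tor hF hee huu heu γ
  have h3 : act (y⁻¹ * g * y) e = (((γ ^ q)⁻¹ : Fˣ) : F) • e := by
    rw [act_mul, act_mul, h2, act_smul, act_inv_act]
  have hg : pr 3 F q g ∈ Bo q e := mem_Bo.2 ⟨g, γ, h1, rfl⟩
  have hg' : (pr 3 F q y)⁻¹ * pr 3 F q g * pr 3 F q y ∈ Bo q e := by
    rw [← map_inv, ← map_mul, ← map_mul]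
    exact mem_Bo.2 ⟨_, _, h3, rfl⟩
  refine ⟨⟨_, hg⟩, hg', ?_⟩
  rw [mu_spec hF he hθ h1 hg]
  have h4 : (⟨(pr 3 F q y)⁻¹ * pr 3 F q g * pr 3 F q y, hg'⟩ : Bo q e) =
      ⟨pr 3 F q (y⁻¹ * g * y), by rw [map_mul, map_mul, map_inv]; exact hg'⟩ :=
    Subtype.ext (by
      show (pr 3 F q y)⁻¹ * pr 3 F q g * pr 3 F q y = pr 3 F q (y⁻¹ * g * y)
      rw [map_mul, map_mul, map_inv])
  rw [h4, mu_spec hF he hθ' h3]
  exact hγ

/-- Mackey's condition inside the Borel subgroup -/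
theorem mc_in (hF : Fintype.card F = q ^ 2) {e : Fin 3 → F} (he : e ≠ 0) (hee : hermForm 3 F q e e = 0)
    {θ θ' : Fˣ →* ℂˣ} (hθ : Tp θ) (hθ' : Tp θ') {γ : Fˣ} (hγ : θ γ ≠ θ' γ) {x : PSU 3 F q}
    (hx : x ∈ Bo q e) : Mc (mu hF he hθ) (mu hF he hθ') x := by
  obtain ⟨y, a, ha, rfl⟩ := mem_Bo.1 hx
  obtain ⟨f, hf, hef⟩ := exists_partner hF he hee
  obtain ⟨g, h1, -⟩ := exists_tor hF hee hf (by rw [hef]; exact one_ne_zero) γ
  have hya : act y⁻¹ e = ((a⁻¹ : Fˣ) : F) • e := by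
    have h2 : act y⁻¹ (act y e) = e := act_inv_act y e
    rw [ha, act_smul] at h2
    have h3 : act y⁻¹ e = ((a⁻¹ : Fˣ) : F) • ((a : F) • act y⁻¹ e) := by
      rw [smul_smul, Units.inv_mul, one_smul]
    rw [h3, h2]
  have h3 : act (y⁻¹ * g * y) e = (γ : F) • e := by
    rw [act_mul, act_mul, ha, act_smul, h1, act_smul, act_smul, hya, smul_smul, smul_smul]
    congr 1
    rw [mul_right_comm, Units.mul_inv, one_mul]
  have hg : pr 3 F q g ∈ Bo q e := mem_Bo.2 ⟨g, γ, h1, rfl⟩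
  have hg' : (pr 3 F q y)⁻¹ * pr 3 F q g * pr 3 F q y ∈ Bo q e := by
    rw [← map_inv, ← map_mul, ← map_mul]
    exact mem_Bo.2 ⟨_, _, h3, rfl⟩
  refine ⟨⟨_, hg⟩, hg', ?_⟩
  rw [mu_spec hF he hθ h1 hg]
  have h4 : (⟨(pr 3 F q y)⁻¹ * pr 3 F q g * pr 3 F q y, hg'⟩ : Bo q e) =
      ⟨pr 3 F q (y⁻¹ * g * y), by rw [map_mul, map_mul, map_inv]; exact hg'⟩ :=
    Subtype.ext (by
      show (pr 3 F q y)⁻¹ * pr 3 F q g * pr 3 F q y = pr 3 F q (y⁻¹ * g * y)
      rw [map_mul, map_mul, map_inv])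
  rw [h4, mu_spec hF he hθ' h3]
  exact hγ

/-- the stabilizer of an isotropic vector has odd order -/
theorem odd_ker (hF : Fintype.card F = q ^ 2) (hq : Odd q) {e : Fin 3 → F} (he : e ≠ 0)
    (hee : hermForm 3 F q e e = 0) : Odd (Nat.card (eig (rep F q) he).ker) := by
  obtain ⟨p, hp, f, hpf⟩ : ∃ p : ℕ, p.Prime ∧ ∃ f : ℕ, Fintype.card F = p ^ f ∧ CharP F p := by
    obtain ⟨p, hcp⟩ := CharP.exists F
    obtain ⟨f, hp, hf⟩ := FiniteField.card F p
    exact ⟨p, hp, f, hf, hcp⟩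
  obtain ⟨hpf, hcp⟩ := hpf
  haveI : Fact p.Prime := ⟨hp⟩
  have hp2 : p ≠ 2 := by
    rintro rfl
    have h1 : Odd (2 ^ f) := by
      rw [← hpf, hF]
      exact hq.pow
    have hf : f = 0 := by
      by_contra h
      exact (Nat.not_even_iff_odd.2 h1) (even_two.pow_of_ne_zero h)
    rw [hf, pow_zero] at hpf
    have := Fintype.one_lt_card (α := F)
    omega
  have h1 : IsPGroup p (eig (rep F q) he).ker := by
    rintro ⟨g, hg⟩
    have h2 : act (g : SU 3 F q) e = e := by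
      have h3 := eig_spec (rep F q) he g
      rw [MonoidHom.mem_ker.1 hg, Units.val_one, one_smul] at h3
      exact h3
    obtain ⟨w, μ, h, hs⟩ := Cfsg.Agent.H273.VecSU3.exists_siegel hF he hee h2
    obtain ⟨k, hk⟩ := Cfsg.Agent.ClassicalGeometry.PSUAutBasic.siegel_pow_prime_pow hF p h
    refine ⟨k, Subtype.ext (Subtype.ext ?_)⟩
    show (g : SU 3 F q) ^ p ^ k = 1
    rw [hs, hk]
  obtain ⟨n, hn⟩ := IsPGroup.iff_card.1 h1
  rw [hn]
  exact (hp.odd_of_ne_two hp2).pow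

/-- the index is even -/
theorem even_index (hF : Fintype.card F = q ^ 2) (hq : Odd q) {e : Fin 3 → F} (he : e ≠ 0)
    (hee : hermForm 3 F q e e = 0) : Even (Bo q e).index := by
  have h1 : (Bo q e).index = (lineStab (rep F q) e).index :=
    Subgroup.index_map_eq _ pr_surjective (by
      intro z hz
      exact center_le hF e ((QuotientGroup.eq_one_iff z).1 hz))
  rw [h1]
  have h2 := odd_ker hF hq he hee
  have h3 : Nat.card (eig (rep F q) he).ker * Nat.card (eig (rep F q) he).range = Nat.card (lineStab (rep F q) e) := by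
    rw [← Subgroup.index_ker, Subgroup.card_mul_index]
  have h4 : Nat.card (eig (rep F q) he).range ∣ q ^ 2 - 1 := by
    have h5 := Subgroup.card_subgroup_dvd_card (eig (rep F q) he).range
    rwa [Nat.card_units, Nat.card_eq_fintype_card (α := F), hF] at h5
  have h5 := (lineStab (rep F q) e).card_mul_index
  have h6 := Cfsg.Agent.S0278.result hF 3 (by norm_num)
  have hprod : (∏ i ∈ Finset.range 3, (if Even i then q ^ (i + 1) + 1 else q ^ (i + 1) - 1)) =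
      (q + 1) * (q ^ 2 - 1) * (q ^ 3 + 1) := by
    rw [Finset.prod_range_succ, Finset.prod_range_succ, Finset.prod_range_succ,
      Finset.prod_range_zero]
    norm_num [Nat.even_iff]
  rw [hprod, ← h5, ← h3] at h6
  have h7 : Nat.card (eig (rep F q) he).ker * Nat.card (eig (rep F q) he).range * (lineStab (rep F q) e).index =
      q ^ 3 * ((q ^ 2 - 1) * (q ^ 3 + 1)) := by
    have hpos : 0 < q + 1 := by omega
    apply Nat.eq_of_mul_eq_mul_left hpos
    rw [h6]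
    norm_num
    ring
  obtain ⟨c, hc⟩ := h4
  have hrpos : 0 < Nat.card (eig (rep F q) he).range := Nat.card_pos
  rw [hc] at h7
  have h8 : Nat.card (eig (rep F q) he).ker * (lineStab (rep F q) e).index = q ^ 3 * (c * (q ^ 3 + 1)) := by
    apply Nat.eq_of_mul_eq_mul_left hrpos
    calc _ = Nat.card (eig (rep F q) he).ker * Nat.card (eig (rep F q) he).range * (lineStab (rep F q) e).index := by ring
      _ = _ := by rw [h7]; ring
  have h9 : Even (Nat.card (eig (rep F q) he).ker * (lineStab (rep F q) e).index) := by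
    rw [h8]
    refine ((Even.mul_left ?_ c)).mul_left _
    exact (hq.pow).add_one
  rcases Nat.even_mul.1 h9 with h | h
  · exact absurd h (Nat.not_even_iff_odd.2 h2)
  · exact h

/-- the character of the field -/
def tw (θ : Fˣ →* ℂˣ) (ρ : F ≃+* F) : Fˣ →* ℂˣ := θ.comp (Units.map (ρ : F →* F))

theorem tw_apply (θ : Fˣ →* ℂˣ) (ρ : F ≃+* F) (a : Fˣ) : tw θ ρ a = θ (Units.map (ρ : F →* F) a) := rfl

theorem tp_tw {θ : Fˣ →* ℂˣ} (hθ : Tp θ) (ρ : F ≃+* F) : Tp (tw θ ρ) := fun a => hθ _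

/-- **The action of the automorphisms.** -/
theorem ps_toAut [Fintype (PSU 3 F q)] (hF : Fintype.card F = q ^ 2) {e : Fin 3 → F} (he : e ≠ 0)
    (hee : hermForm 3 F q e e = 0) {θ : Fˣ →* ℂˣ} (hθ : Tp θ) (A : Cfsg.GU 3 F q) (ρ : F ≃+* F) (s : PSU 3 F q) :
    ps (Bo q e) (mu hF he hθ) (toAut A ρ s) = ps (Bo q e) (mu hF he (tp_tw hθ ρ)) s := by
  classical
  obtain ⟨f, hf, hef⟩ := exists_partner hF he hee
  set e' : Fin 3 → F := gm A *ᵥ fun i => ρ (e i) with he'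
  set f' : Fin 3 → F := gm A *ᵥ fun i => ρ (f i) with hf'
  obtain ⟨g, -, hg1, -⟩ := exists_map_hyp hF le_rfl le_rfl (mem_coordSub_top e') (mem_coordSub_top f')
    (mem_coordSub_top e) (mem_coordSub_top f) (by rw [he', herm_semi, hee, map_zero])
    (by rw [hf', herm_semi, hf, map_zero]) (by rw [he', hf', herm_semi, hef, map_one]) hee hf hef
  -- the adjusted automorphism
  set β : PSU 3 F q ≃* PSU 3 F q := (toAut A ρ).trans (MulAut.conj (pr 3 F q g)) with hβ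
  have hβpr : ∀ x : SU 3 F q, β (pr 3 F q x) = pr 3 F q (g * semiConj A ρ x * g⁻¹) := by
    intro x
    show MulAut.conj (pr 3 F q g) (toAut A ρ (pr 3 F q x)) = _
    rw [toAut_pr, MulAut.conj_apply, map_mul, map_mul, map_inv]
  have hact : ∀ (x : SU 3 F q) (a : Fˣ), act x e = (a : F) • e →
      act (g * semiConj A ρ x * g⁻¹) e = ((Units.map (ρ : F →* F) a : Fˣ) : F) • e := by
    intro x a ha
    have h1 : act g⁻¹ e = e' := by rw [← hg1, act_inv_act]
    rw [act_mul, act_mul, h1, he', act_semiConj, ha]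
    have h2 : (fun i => ρ (((a : F) • e) i)) = ρ (a : F) • fun i => ρ (e i) := by
      funext i
      rw [Pi.smul_apply, Pi.smul_apply, smul_eq_mul, smul_eq_mul, map_mul]
    rw [h2, Matrix.mulVec_smul, ← he', act_smul, hg1]
    rfl
  have hfwd : ∀ s, s ∈ Bo q e → β s ∈ Bo q e := by
    intro s hs
    obtain ⟨x, a, ha, rfl⟩ := mem_Bo.1 hs
    rw [hβpr]
    exact mem_Bo.2 ⟨_, _, hact x a ha, rfl⟩
  have hmap : (Bo q e).map β.toMonoidHom = Bo q e := by
    apply Subgroup.eq_of_le_of_card_ge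
    · rintro _ ⟨s, hs, rfl⟩
      exact hfwd s hs
    · rw [Subgroup.card_map_of_injective β.injective]
  have hiff := mem_iff_of_map (Bo q e) β hmap
  have h1 : ps (Bo q e) (mu hF he hθ) (β s) = ps (Bo q e) (mu hF he (tp_tw hθ ρ)) s := by
    refine indFun_transport β (Bo q e) (Bo q e) hiff _ _ ?_ s
    intro s hs hs'
    obtain ⟨x, a, ha, rfl⟩ := mem_Bo.1 hs
    have h2 : (⟨β (pr 3 F q x), hs'⟩ : Bo q e) = ⟨pr 3 F q (g * semiConj A ρ x * g⁻¹), by
        rw [← hβpr]; exact hs'⟩ := Subtype.ext (hβpr x)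
    rw [h2, mu_spec hF he hθ (hact x a ha), mu_spec hF he (tp_tw hθ ρ) ha]
    rfl
  rw [← h1]
  have h2 := ps_cf (mu hF he hθ) (toAut A ρ s) (pr 3 F q g)
  exact h2.symm

end

end Cfsg.Agent.H352.EB.U3
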